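/- U4 tower (row S5210): characteristic subgroups, and the levels one and two. -/
import Cfsg.Agent.H28.U4Gen

set_option autoImplicit false
set_option linter.unusedSectionVars false

open Subgroup H90.RF H92 Cfsg H28.U4
open H90.U5 (BF Bq)

universe v

namespace H55.U4AP

variable {K : Type*} [Field K] [Finite K] {T : BF K} {θ : Co T → Co T}

theorem prD (h : Au ⊤ θ) : Pr θ (sD T) := fun u hu => by
  have hz : (cm (xa T u.c) (xb T 1 (map_one _)))⁻¹ * u ∈ sZ T :=
    ⟨by simp [hu.1], by simp [hu.2], by simp [cm_c, xa, xb]⟩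
  obtain ⟨t, e⟩ := Z_cm hz
  rw [← mul_inv_cancel_left (cm (xa T u.c) (xb T 1 (map_one _))) u, e, h.mul _ trivial _ trivial,
    h.cm trivial trivial, h.cm trivial trivial]
  exact mul_mem (cm_D _ _) (cm_D _ _)

theorem prZ (h : Au ⊤ θ) : Pr θ (sZ T) := fun u hu => by
  obtain ⟨t, rfl⟩ := Z_cm hu
  rw [h.cm trivial trivial]
  exact cm_Z _ (prD h _ ⟨rfl, rfl⟩)

theorem prA (h : Au ⊤ θ) : Pr θ (sA T) := fun u hu => by
  by_contra k
  obtain ⟨t, ht⟩ := exists_tr_ne (T := T) (γ := (θ u).a) k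
  obtain ⟨w, hw, e⟩ := h.sur_of le_top (prD h) (xc T t) ⟨rfl, rfl⟩
  have := h.cm (c := u) (d := w) trivial trivial
  rw [cm_eq_one.2 (comm_A hu hw.1), h.one, e] at this
  have := congrArg Co.d this
  rw [cm_dA _ rfl] at this
  simp only [xc, Co.one_d, mul_zero, add_zero] at this
  exact ht (by linear_combination -this)

theorem prQ (h : Au ⊤ θ) : Pr θ (sQ T) := by
  have add : ∀ s t, (θ (xa T (s + t))).b = (θ (xa T s)).b + (θ (xa T t)).b := fun s t => by
    rw [xa_add, h.mul _ trivial _ trivial, Co.mul_b]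
  have h0 : ∃ t, t ≠ 0 ∧ (θ (xa T t)).b = 0 := by
    by_contra! k
    have := Nat.card_le_card_of_injective
      (fun x : T.κ × T.κ => (⟨(θ (xa T (x.1 + x.2 * T.ω))).b, Co.hb _⟩ : T.κ)) fun x y e => by
        have e : (θ (xa T (x.1 + x.2 * T.ω))).b = (θ (xa T (y.1 + y.2 * T.ω))).b := congrArg Subtype.val e
        have e2 : (x.1 : K) + x.2 * T.ω = y.1 + y.2 * T.ω := by
          by_contra ne
          refine k _ (sub_ne_zero.2 ne) ?_
          have := add (x.1 + x.2 * T.ω - (y.1 + y.2 * T.ω)) (y.1 + y.2 * T.ω)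
          rw [sub_add_cancel, e] at this
          linear_combination -this
        exact Prod.ext (T.pair_inj e2).1 (T.pair_inj e2).2
    have h2 := Finite.one_lt_card (α := T.κ)
    rw [Nat.card_prod] at this
    nlinarith
  obtain ⟨t, ht, h0⟩ := h0
  have ha : (θ (xa T t)).a ≠ 0 := fun k => ht (h.mem_of le_top (prA h) (c := xa T t) trivial k)
  intro u hu
  have h1 : (θ (xa T u.a)).b = 0 := by
    have := (prZ h _ (cm_Q (s := xa T t) (m := xa T u.a) rfl rfl)).2.2
    rw [h.cm trivial trivial, cm_c, h0] at this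
    simpa [ha] using this
  have h2 : (xa T u.a)⁻¹ * u ∈ sD T := ⟨by simp [xa], by simpa [xa, mem_sQ] using hu⟩
  rw [← mul_inv_cancel_left (xa T u.a) u, h.mul _ trivial _ trivial]
  exact mul_mem h1 (prD h _ h2).2

theorem jobAP : JobAP.{v} := fun _ _ _ _ _ _ _ _ h => ⟨prZ h, prD h, prA h, prQ h⟩

theorem jobL1 : JobL1.{v} := fun p _ K _ _ _ T => by
  refine ⟨fun E M h => ?_, fun E M h => h.ne (eq_top_iff.2 fun s _ => (h.cen s).2 fun m _ => cm_D s m)⟩
  have cen : ∀ {s m}, s ∈ E → m ∈ M → s.a * m.b - m.a * s.b = 0 := fun hs hm =>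
    (cm_c _ _).symm.trans ((h.cen _).1 hs _ hm).2.2
  have hM : M ≤ sQ T := fun m hm => by
    by_contra hb
    have hb : m.b ≠ 0 := hb
    have hD : sD T ≤ E := h.le.trans h.ME
    have inj : ∀ t t', (xa T t)⁻¹ * xa T t' ∈ E → t = t' := fun t t' k => by
      have e := cen k hm
      simp [xa, hb] at e
      linear_combination -e
    refine h.no2 (B := ⊤) (le_nor fun s _ c _ => hD (cm_D s c)) (fun x _ y _ m _ => cm_Z x (cm_D y m))
      (s := xa T 1) trivial (fun k => hb (by simpa [xa] using cen k hm))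
      (fun x y : T.κ => xa T (x + y * T.ω)) (fun l => xc T l) (fun _ _ => trivial)
      (fun x y x' y' k => T.pair_inj (inj _ _ k)) fun m' _ => ⟨⟨m'.b, m'.hb⟩, ?_⟩
    exact ⟨by simp [xc], by simp [xc], by simp [xc, cm_c, xa]⟩
  obtain ⟨m, hm, hm'⟩ := SetLike.not_le_iff_exists.1 (h.not_le (X := sD T) fun c hc s => cm_Z s hc)
  have hb : m.b = 0 := hM hm
  have ha : m.a ≠ 0 := fun k => hm' ⟨k, hb⟩
  refine le_antisymm (fun s hs => ?_) fun s hs => (h.cen s).2 fun m hm => cm_Q hs (hM hm)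
  simpa [hb, ha, mem_sQ] using cen hs hm

end H55.U4AP
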