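/- U4 tower (row S5210): trivial intersections and the variance bound. -/
import Cfsg.Agent.H28.U4Gen

set_option autoImplicit false

open Subgroup H90.RF H92 Cfsg H28.U4

universe v

namespace H55.U4TI

theorem jobTI : JobTI.{v} := fun p _ K _ _ _ T Y s nm α hα t t' ht e => by
  have hU : (iS (sA T)).range ≤ Y ⊓ centralizer {ux T t} := fun x hx => ⟨s.syl.1 hx, by
    obtain ⟨c, rfl⟩ := mem_U.1 hx
    exact mem_centralizer_singleton_iff.2 (ux_comm c t)⟩
  obtain ⟨γ, hγ, h⟩ := (s.syl.mono hU inf_le_left).exists_conj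
    (C := (iS (sA T)).range.map (MulAut.conj α).toMonoidHom) (s.syl.2.1.map _) (by
      rintro _ ⟨x, hx, rfl⟩
      obtain ⟨c, rfl⟩ := mem_U.1 hx
      refine ⟨Y.mul_mem (Y.mul_mem hα (s.ux_mem c)) (Y.inv_mem hα), mem_centralizer_singleton_iff.2 ?_⟩
      rw [← e]
      show α * ux T c * α⁻¹ * (α * ux T t' * α⁻¹) = α * ux T t' * α⁻¹ * (α * ux T c * α⁻¹)
      rw [conj_mul, conj_mul, ux_comm])
  have h1 : PZ T γ := by
    by_contra k
    exact nm t ht ⟨γ, hγ.1, mem_centralizer_singleton_iff.1 hγ.2, k⟩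
  have h2 : PZ T ⇑(γ * α)⁻¹ := pz_of_nor (s.lg.au _ (inv_mem (mul_mem hγ.1 hα))) fun c => by
    obtain ⟨c', k⟩ := mem_U.1 (h _ ⟨_, mem_U.2 ⟨c, rfl⟩, rfl⟩)
    exact ⟨c', by rw [← k]; simp [mul_assoc]⟩
  exact h1.of_mul_left (by simpa using h2.inv)

theorem jobVar : JobVar.{v} := fun X ι _ V S J D r h1 h2 hS hx => by
  classical
  let f : ι → X → ℤ := fun i x => r * (if x ∈ D i then 1 else 0) - 1
  have s1 : ∀ A : Finset X, A ⊆ V → ∑ x ∈ V, (if x ∈ A then (1 : ℤ) else 0) = A.card := fun A hA => by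
    rw [Finset.sum_ite_mem, Finset.inter_eq_right.2 hA]; simp
  have key : ∀ i ∈ J, ∀ j ∈ J, ∑ x ∈ V, f i x * f j x =
      (r : ℤ) ^ 2 * (D i ∩ D j).card - V.card := fun i hi j hj => by
    have a := s1 _ (h1 i hi).1
    have b := s1 _ (h1 j hj).1
    have c := s1 (D i ∩ D j) (Finset.inter_subset_left.trans (h1 i hi).1)
    have a' : (r : ℤ) * (D i).card = V.card := by exact_mod_cast (h1 i hi).2
    have b' : (r : ℤ) * (D j).card = V.card := by exact_mod_cast (h1 j hj).2
    have : ∀ x ∈ V, f i x * f j x = (r : ℤ) ^ 2 * (if x ∈ D i ∩ D j then 1 else 0) -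
        r * (if x ∈ D i then 1 else 0) - r * (if x ∈ D j then 1 else 0) + 1 := fun x _ => by
      by_cases p : x ∈ D i <;> by_cases q : x ∈ D j <;> simp [f, p, q] <;> ring
    rw [Finset.sum_congr rfl this, Finset.sum_add_distrib, Finset.sum_sub_distrib,
      Finset.sum_sub_distrib, ← Finset.mul_sum, ← Finset.mul_sum, ← Finset.mul_sum, a, b, c]
    simp only [Finset.sum_const, nsmul_eq_mul, mul_one]
    linear_combination -a' - b'
  have tot : ∑ x ∈ V, (∑ i ∈ J, f i x) ^ 2 = V.card * (J.card * ((r : ℤ) - 1)) := by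
    simp only [sq, Finset.sum_mul_sum]
    rw [Finset.sum_comm]
    have : ∀ i ∈ J, ∑ x ∈ V, ∑ j ∈ J, f i x * f j x = V.card * ((r : ℤ) - 1) := fun i hi => by
      rw [Finset.sum_comm, Finset.sum_eq_single_of_mem i hi fun j hj ne => ?_]
      · have a' : (r : ℤ) * (D i).card = V.card := by exact_mod_cast (h1 i hi).2
        rw [key i hi i hi, Finset.inter_self]
        linear_combination (r : ℤ) * a'
      · have a' : (r : ℤ) ^ 2 * (D i ∩ D j).card = V.card := by exact_mod_cast h2 i hi j hj ne.symm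
        rw [key i hi j hj, a', sub_self]
    rw [Finset.sum_congr rfl this, Finset.sum_const, nsmul_eq_mul]
    ring
  rw [← tot]
  refine le_trans (le_of_eq ?_) (Finset.sum_le_sum_of_subset_of_nonneg hS fun _ _ _ => sq_nonneg _)
  rw [← nsmul_eq_mul, ← Finset.sum_const]
  refine Finset.sum_congr rfl fun x hxS => ?_
  obtain ⟨i, hi, hxi, hu⟩ := hx x hxS
  simp only [f]
  rw [Finset.sum_sub_distrib, ← Finset.mul_sum, Finset.sum_eq_single_of_mem i hi fun j hj ne =>
    if_neg fun k => ne (hu j hj k), if_pos hxi]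
  simp only [Finset.sum_const, nsmul_eq_mul, mul_one]
  ring

end H55.U4TI
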