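import Cfsg.Agent.H36.O84Spec
import Cfsg.Agent.H14.FStar

/-! Tower O84, slot PFT. -/

set_option autoImplicit false

namespace H55.O84PFT

open H36.O84 Subgroup

universe u

variable {Γ : Type} [Group Γ]

theorem btw_cS {J H : Subgroup Γ} {n : ℕ} (g : Γ) (h : Btw J n H) : Btw (cS g J) n (cS g H) :=
  ⟨map_mono h.1, (map_mono h.2.1).trans (le_normalizer_map _),
    (relIndex_map_map_of_injective _ _ (MulAut.conj g).injective).trans h.2.2⟩

theorem fs {Om : Type u} [Group Om] (hs : IsSimpleGroup Om) (hn : ¬ ∀ x y : Om, x * y = y * x)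
    (h : FS Γ) {J H : Subgroup Γ} {n : ℕ} (e : J ≃* Om) (hc : centralizer (J : Set Γ) = ⊥)
    (b : Btw J n H) : Cfsg.generalizedFittingSubgroup H = J.subgroupOf H :=
  h J H e.isSimpleGroup (fun k => hn fun x y => by
    rw [← e.apply_symm_apply x, ← e.apply_symm_apply y, ← map_mul, k, map_mul]) hc b.1 b.2.1

theorem jobPFT : JobPFT.{u} := by
  intro Γ _ _ Om _ F hs hn h
  refine ⟨?_, ?_, ?_⟩
  · rintro n H ⟨⟨e⟩, hi⟩
    have := H14.fstar_normal H
    have le : (Cfsg.generalizedFittingSubgroup H).map H.subtype ≤ H := map_subtype_le _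
    have so : ((Cfsg.generalizedFittingSubgroup H).map H.subtype).subgroupOf H =
        Cfsg.generalizedFittingSubgroup H := comap_map_eq_self_of_injective H.subtype_injective _
    obtain ⟨i, g, hg⟩ := F.all ((Cfsg.generalizedFittingSubgroup H).map H.subtype)
      ⟨(equivMapOfInjective _ _ H.subtype_injective).symm.trans e⟩
    refine ⟨g, i, hg ▸ btw_cS g ⟨le, ?_, ?_⟩⟩
    · exact (normal_subgroupOf_iff_le_normalizer le).1 (so.symm ▸ this)
    · rw [relIndex, so, hi]
  · intro n i H b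
    obtain ⟨e⟩ := F.iso i
    rw [PF, fs hs hn h e (F.cen i) b]
    exact ⟨⟨(subgroupOfEquivOfLe b.1).trans e⟩, b.2.2⟩
  · rintro n m i j H H' b b' ⟨g, rfl⟩
    obtain ⟨e⟩ := F.iso i
    obtain ⟨e'⟩ := F.iso j
    have b1 := btw_cS g b
    have c1 : centralizer (cS g (F.J i) : Set Γ) = ⊥ := eq_bot_iff.2 fun x hx => by
      have : g⁻¹ * x * g ∈ centralizer (F.J i : Set Γ) := fun y hy => by
        have k : g * y * g⁻¹ * x = x * (g * y * g⁻¹) := hx _ ⟨y, hy, rfl⟩
        calc y * (g⁻¹ * x * g) = g⁻¹ * (g * y * g⁻¹ * x) * g := by group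
          _ = _ := by rw [k]; group
      rw [F.cen i, mem_bot] at this
      rw [mem_bot, show x = g * (g⁻¹ * x * g) * g⁻¹ by group, this]
      group
    have k := (fs hs hn h ((equivMapOfInjective _ _ (MulAut.conj g).injective).symm.trans e) c1 b1).symm.trans
      (fs hs hn h e' (F.cen j) b')
    rw [subgroupOf_inj, inf_eq_left.2 b1.1, inf_eq_left.2 b'.1] at k
    exact F.nc i j ⟨g, k⟩

end H55.O84PFT
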