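import Cfsg.Agent.H42.IVSpec

/-! Tower IV, slot Quo: inverted elements of odd order lift from a quotient. -/

set_option autoImplicit false

namespace H55.IVQuo

open Subgroup H42.IV

universe u

theorem lift {H K : Type*} [Group H] [Finite H] [Group K] [Finite K] (f : H →* K)
    (hf : Function.Surjective f) {a : H} (ha : a * a = 1) {x : K} (hx : x ∈ J (f a)) :
    ∃ v ∈ J a, f v = x := by
  obtain ⟨⟨m, hm⟩, hi⟩ := hx
  have hz : x ^ (m + 1) * x ^ (m + 1) = x := by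
    rw [← pow_add, show m + 1 + (m + 1) = (2 * m + 1) + 1 by ring, pow_succ, ← hm, pow_orderOf_eq_one,
      one_mul]
  obtain ⟨y, hy⟩ := hf (x ^ (m + 1))
  have hai : a⁻¹ = a := inv_eq_of_mul_eq_one_right ha
  have hv : f (y * (a * y * a⁻¹)⁻¹) = x := by
    rw [map_mul, map_inv, map_mul, map_mul, map_inv, hy, ← conj_pow, hi, inv_pow, inv_inv, hz]
  have hvi : a * (y * (a * y * a⁻¹)⁻¹) * a⁻¹ = (y * (a * y * a⁻¹)⁻¹)⁻¹ := by
    calc a * (y * (a * y * a⁻¹)⁻¹) * a⁻¹ = a * y * a * y⁻¹ * (a * a)⁻¹ := by group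
      _ = a * y * a⁻¹ * y⁻¹ := by rw [ha, inv_one, mul_one, hai]
      _ = _ := by group
  obtain ⟨v, hvd⟩ : ∃ v, v = y * (a * y * a⁻¹)⁻¹ := ⟨_, rfl⟩
  rw [← hvd] at hv hvi
  obtain ⟨N, r, hr, e⟩ := Nat.exists_eq_two_pow_mul_odd (orderOf_pos v).ne'
  have hc : Nat.Coprime (2 ^ N) (orderOf x) :=
    Nat.Coprime.pow_left _ (Nat.coprime_two_left.2 ⟨m, hm⟩)
  have h1 := Nat.ModEq.pow_totient hc
  obtain ⟨j, hj⟩ : ∃ j, Nat.totient (orderOf x) = j + 1 :=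
    ⟨_, (Nat.succ_pred_eq_of_pos (Nat.totient_pos.2 (orderOf_pos x))).symm⟩
  refine ⟨v ^ (2 ^ N) ^ Nat.totient (orderOf x), ⟨Odd.of_dvd_nat hr (orderOf_dvd_of_pow_eq_one ?_), ?_⟩, ?_⟩
  · rw [← pow_mul, hj, pow_succ, mul_assoc, ← e, mul_comm, pow_mul, pow_orderOf_eq_one, one_pow]
  · rw [← conj_pow, hvi, inv_pow]
  · rw [map_pow, hv, pow_eq_pow_iff_modEq.2 h1, pow_one]

theorem jobQuo : H42.IV.JobQuo.{u} := by
  intro H _ _ a N _ hs
  have hf := QuotientGroup.mk'_surjective N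
  refine ⟨⟨by rw [← QuotientGroup.mk_mul, hs.sq, QuotientGroup.mk_one], ?_⟩, ?_⟩
  · rw [eq_top_iff, ← map_top_of_surjective _ hf, ← hs.gen, MonoidHom.map_closure]
    refine closure_mono ?_
    rintro _ ⟨g, rfl | hg, rfl⟩
    · exact Set.mem_insert _ _
    · refine Set.mem_insert_of_mem _ ⟨Odd.of_dvd_nat hg.1 (orderOf_map_dvd _ g), ?_⟩
      have := congrArg (QuotientGroup.mk' N) hg.2
      simpa using this
  · refine le_trans (Set.ncard_le_ncard (t := QuotientGroup.mk' N '' J a) (fun x hx => ?_))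
      (Set.ncard_image_le (Set.toFinite _))
    obtain ⟨v, hv, e⟩ := lift (QuotientGroup.mk' N) hf hs.sq hx
    exact ⟨v, hv, e⟩

end H55.IVQuo
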