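import Cfsg.Agent.H40.E7Spec

/-! E7S tower: the 56-dimensional module of `E₇(2)`. -/

set_option autoImplicit false

namespace H55.E7S

open Matrix Cfsg.Lie H63 H65 H40.AS H26.E7 H40.E7S

attribute [local instance] tabE7 commE7

theorem row_one : ∀ j : Fin 56, ∃ r ∈ [32, 47, 52, 56, 59, 61, 62, 95, 110, 115, 119, 122, 124, 125],
    ∃ i : Fin 56, aW r i j ∈ [(1 : ℤ), -1] ∧ ∀ j', j' ≠ j → aW r i j' = 0 := by decide +kernel

theorem col_one : ∀ i : Fin 56, ∃ r ∈ [32, 47, 52, 56, 59, 61, 62, 95, 110, 115, 119, 122, 124, 125],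
    ∃ j : Fin 56, aW r i j ∈ [(1 : ℤ), -1] ∧ ∀ i', i' ≠ i → aW r i' j = 0 := by decide +kernel

theorem rank_map {F K n : Type*} [Field F] [Field K] [Fintype n] [DecidableEq n] (τ : F →+* K)
    (A : Matrix n n F) : (A.map τ).rank = A.rank := by
  classical
  obtain ⟨L, L', D, rfl⟩ := Matrix.Pivot.exists_list_transvec_mul_diagonal_mul_list_transvec A
  have h1 := TransvectionStruct.det_toMatrix_prod L
  have h2 := TransvectionStruct.det_toMatrix_prod L'
  have h3 : ∀ M : Matrix n n F, M.det = 1 → IsUnit (M.map τ).det := fun M hM => by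
    rw [← RingHom.mapMatrix_apply, ← RingHom.map_det, hM, map_one]; exact isUnit_one
  rw [Matrix.map_mul, Matrix.map_mul, rank_mul_eq_left_of_isUnit_det _ _ (h3 _ h2),
    rank_mul_eq_right_of_isUnit_det _ _ (h3 _ h1),
    rank_mul_eq_left_of_isUnit_det _ _ (h2 ▸ isUnit_one),
    rank_mul_eq_right_of_isUnit_det _ _ (h1 ▸ isUnit_one), diagonal_map (map_zero τ),
    rank_diagonal, rank_diagonal]
  simp

open Classical in
theorem rank_add {F : Type*} [Field F] {n : ℕ} {s g : GL (Fin n) F} {d : Fin n → F}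
    (hd : (g * s * g⁻¹).val = diagonal d) (μ : F) :
    (s.val - μ • 1).rank + (Finset.univ.filter fun j => d j = μ).card = n := by
  have h1 : g.val * (s.val - μ • 1) * (g⁻¹).val = diagonal fun j => d j - μ := by
    rw [mul_sub, sub_mul, ← Units.val_mul, ← Units.val_mul, hd, Matrix.mul_smul, Matrix.smul_mul,
      mul_one, Units.mul_inv, smul_one_eq_diagonal, diagonal_sub]
  rw [← rank_mul_eq_right_of_isUnit_det g.val _ (isUnits_det_units g),
    ← rank_mul_eq_left_of_isUnit_det (g⁻¹).val _ (isUnits_det_units _), h1, rank_diagonal,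
    Fintype.card_subtype, add_comm]
  simpa [sub_eq_zero] using Finset.card_filter_add_card_filter_not (s := (Finset.univ : Finset (Fin n)))
    (fun j => d j = μ)

theorem dm_add (A : Matrix (Fin 56) (Fin 56) (ZMod 2)) : (A - 1).rank + dm (kf (toLin' A)) = 56 := by
  have := LinearMap.finrank_range_add_finrank_ker (toLin' A - 1)
  rw [Module.finrank_fin_fun] at this
  rw [Matrix.rank, ← toLin'_apply', map_sub, toLin'_one]
  exact this

/-- extension of the field -/
noncomputable def ext : rep56.G (ZMod 2) →* rep56.G (Kb 2) :=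
  ((GeneralLinearGroup.map (algebraMap (ZMod 2) (Kb 2))).comp (rep56.G (ZMod 2)).subtype).codRestrict _
    fun g => (rep56.G_le (K := (rep56.G (Kb 2)).comap
      (GeneralLinearGroup.map (algebraMap (ZMod 2) (Kb 2)))) fun r _ t => by
        have : GeneralLinearGroup.map (algebraMap (ZMod 2) (Kb 2)) (rep56.xU (ZMod 2) r t) =
            rep56.xU (Kb 2) r (algebraMap (ZMod 2) (Kb 2) t) := Units.ext (rep56.x_map _ r t)
        rw [Subgroup.mem_comap, this]
        exact rep56.xU_mem r _) g.2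

theorem ext_val (g : rep56.G (ZMod 2)) : (ext g : GL (Fin 56) (Kb 2)).val =
    (g : GL (Fin 56) (ZMod 2)).val.map (algebraMap (ZMod 2) (Kb 2)) := rfl

theorem exists_equiv : Nonempty (rep56.G (ZMod 2) ≃* chevE7.group (ZMod 2)) := by
  obtain ⟨φ, h1, -, h3⟩ := rep56.exists_hom (F := ZMod 2) (rep56.ker_eq_bot_of_simple
    (Cfsg.Agent.S1054.result (F := ZMod 2) _ (by simp)).1 ⟨62, by decide, fun h => by
      have h2 := congrFun (congrFun h 0) 1
      rw [Rep.A_apply, show rep56.a 62 0 1 = _ from aW_ne] at h2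
      simp at h2⟩)
  refine ⟨MulEquiv.ofBijective φ ⟨(injective_iff_map_eq_one φ).2 fun g hg => ?_, h1⟩⟩
  obtain ⟨z, -, hz⟩ := scalar (g := ext g) fun r hr => by
    have h4 := h3 g (bv chevE7 (ZMod 2) r)
    rw [hg] at h4
    simp only [OneMemClass.coe_one, Units.val_one, one_mulVec,
      rep56.ρ_bv (show r < chevE7.nroots + chevE7.rank by omega)] at h4
    have h5 := congrArg (fun M => M.map (algebraMap (ZMod 2) (Kb 2))) h4
    simp only [Matrix.map_mul, rep56.A_map] at h5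
    exact h5
  have h6 : (z : Kb 2) = 1 := by
    have h7 := congrFun (congrFun hz 0) 0
    rw [ext_val, map_apply, diagonal_apply_eq] at h7
    generalize (g : GL (Fin 56) (ZMod 2)).val 0 0 = a at h7
    fin_cases a
    · exact absurd (h7.symm.trans (map_zero _)) z.ne_zero
    · exact h7.symm.trans (map_one _)
  refine Subtype.ext (Units.ext (Matrix.map_injective (algebraMap (ZMod 2) (Kb 2)).injective ?_))
  simp only [← ext_val, hz, h6]
  simp

theorem count {l : ℕ} [Fact l.Prime] (hl : l.Coprime 56) (g : rep56.G (ZMod 2)) (hg : orderOf g = l) :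
    ∃ a : Fin 7 → ZMod l,
      dm (kf (toLin' (g : GL (Fin 56) (ZMod 2)).val)) =
        (Finset.univ.filter fun j : Fin 56 => ∑ k, a k * (wt k j : ZMod l) = 0).card ∧
      (Finset.univ.filter fun j : Fin 56 => ∑ k, a k * (wt k j : ZMod l) = 0).card ≠ 56 ∧
      (Finset.univ.filter fun j : Fin 56 => ∑ k, a k * (wt k j : ZMod l) = 1).card =
        (Finset.univ.filter fun j : Fin 56 => ∑ k, a k * (wt k j : ZMod l) = 2).card := by
  classical
  have hp : l.Prime := Fact.out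
  have h2 : l.Coprime 2 := hl.coprime_dvd_right (by norm_num)
  have he : (l : Kb 2) ≠ 0 := fun h => by
    rw [CharP.cast_eq_zero_iff (Kb 2) 2] at h
    exact absurd (Nat.Coprime.eq_one_of_dvd h2.symm h) (by norm_num)
  haveI : NeZero (l : Kb 2) := ⟨he⟩
  have h : ext g ^ l = 1 := by rw [← map_pow, ← hg, pow_orderOf_eq_one, map_one]
  obtain ⟨φ, h1, h2', h3⟩ := exists_phi (F := Kb 2)
  obtain ⟨σ, hσ, -, -, halg⟩ := H67.exists_frobAut (ZMod 2)
  obtain ⟨u, c, hc, hu⟩ := H67.exists_conj_tor_coprime (D := chevE7) (k := Kb 2) (N := 2)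
    Fintype.one_lt_card hσ halg (fun d hd => H64.kerE7.pow_eq_one' hd) he h2
    (s := φ (ext g)) (by rw [← map_pow, h, map_one])
  obtain ⟨u, rfl⟩ := h1 u
  obtain ⟨t, ht, ht'⟩ := h3 c
  obtain ⟨z, hz, h4⟩ := h2' (u * ext g * u⁻¹ * t⁻¹) (by
    simp only [map_mul, map_inv, hu, ht', mul_inv_cancel])
  have h5 : ((u : GL (Fin 56) (Kb 2)) * ext g * (u : GL (Fin 56) (Kb 2))⁻¹).val =
      diagonal fun j : Fin 56 => ((z * ∏ k : Fin 7, c k ^ wt k j : (Kb 2)ˣ) : Kb 2) := by
    rw [show (u : GL (Fin 56) (Kb 2)) * ext g * (u : GL (Fin 56) (Kb 2))⁻¹ =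
      ((u * ext g * u⁻¹ * t⁻¹ : rep56.G (Kb 2)) : GL (Fin 56) (Kb 2)) * t by simp, Units.val_mul, h4,
      ht, diagonal_mul_diagonal]
    congr 1; funext j
    rw [Units.val_mul]
    exact congrArg (fun y : (Kb 2)ˣ => (z : Kb 2) * y)
      (Finset.prod_congr rfl fun k _ => congrArg _ (rep_wt k j))
  have hck : ∀ k : Fin 7, c k ^ l = 1 := fun k => congrFun hc k
  have hz1 : z = 1 := by
    have h6 : ((u : GL (Fin 56) (Kb 2)) * ext g * (u : GL (Fin 56) (Kb 2))⁻¹) ^ l = 1 := by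
      rw [conj_pow, ← Subgroup.coe_pow, h]; simp
    have h7 := congrArg Units.val h6
    rw [Units.val_pow_eq_pow_val, h5, diagonal_pow] at h7
    replace h7 := congrFun (congrFun h7 0) 0
    rw [diagonal_apply_eq, Pi.pow_apply, ← Units.val_pow_eq_pow_val, mul_pow, ← Finset.prod_pow] at h7
    have h7' : ∀ (k : Fin 7) (m : ℤ), (c k ^ m) ^ l = 1 := fun k m => by
      rw [← zpow_natCast, ← _root_.zpow_mul, mul_comm, _root_.zpow_mul, zpow_natCast, hck,
        _root_.one_zpow]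
    simp only [h7', Finset.prod_const_one, mul_one] at h7
    have h8 : z ^ l = 1 := Units.ext (h7.trans (Matrix.one_apply_eq _))
    exact (pow_eq_one_iff_of_coprime hl).1 ⟨h8, hz⟩
  obtain ⟨ζ, hζ⟩ := HasEnoughRootsOfUnity.exists_primitiveRoot (Kb 2) l
  haveI : NeZero l := ⟨hp.ne_zero⟩
  have hζ0 : ζ ≠ 0 := hζ.ne_zero hp.ne_zero
  choose a _ ha using fun k : Fin 7 => hζ.eq_pow_of_pow_eq_one (ξ := (c k : Kb 2))
    (by rw [← Units.val_pow_eq_pow_val, hck, Units.val_one])
  have h9 : ∀ (j : Fin 56) (m : ℕ), ((z * ∏ k : Fin 7, c k ^ wt k j : (Kb 2)ˣ) : Kb 2) = ζ ^ m ↔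
      ∑ k, ((a k : ℕ) : ZMod l) * (wt k j : ZMod l) = m := fun j m => by
    have e : ((z * ∏ k : Fin 7, c k ^ wt k j : (Kb 2)ˣ) : Kb 2) = ζ ^ ∑ k, (a k : ℤ) * wt k j := by
      rw [hz1, one_mul, Units.coe_prod, Fin.prod_univ_seven, Fin.sum_univ_seven]
      simp only [Units.val_zpow_eq_zpow_val, ← ha, zpow_add₀ hζ0, _root_.zpow_mul, zpow_natCast]
    rw [e, ← zpow_natCast, ← div_eq_one_iff_eq (zpow_ne_zero _ hζ0), ← zpow_sub₀ hζ0,
      hζ.zpow_eq_one_iff_dvd, ← ZMod.intCast_zmod_eq_zero_iff_dvd]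
    push_cast
    rw [sub_eq_zero]
  have k0 := rank_add h5 (ζ ^ 0)
  have k1 := rank_add h5 (ζ ^ 1)
  have k2 := rank_add h5 (ζ ^ 2)
  simp only [h9, Nat.cast_zero, Nat.cast_one, Nat.cast_ofNat] at k0 k1 k2
  have e0 : ((ext g : GL (Fin 56) (Kb 2)).val - ζ ^ 0 • 1).rank =
      ((g : GL (Fin 56) (ZMod 2)).val - 1).rank := by
    rw [← rank_map (algebraMap (ZMod 2) (Kb 2)), ext_val, pow_zero, one_smul, Matrix.map_sub _ (map_sub _),
      Matrix.map_one _ (map_zero _) (map_one _)]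
  have e1 : ((ext g : GL (Fin 56) (Kb 2)).val - ζ ^ 2 • 1).rank =
      ((ext g : GL (Fin 56) (Kb 2)).val - ζ ^ 1 • 1).rank := by
    rw [← rank_map (frobenius (Kb 2) 2) (_ - ζ ^ 1 • 1)]
    congr 1
    ext i j
    rw [map_apply, Matrix.sub_apply, Matrix.sub_apply, map_sub, ext_val, map_apply, frobenius_def, frobenius_def,
      ← map_pow, ZMod.pow_card]
    by_cases e : i = j <;> simp [e]
  have e2 := dm_add (g : GL (Fin 56) (ZMod 2)).val
  refine ⟨fun k => (a k : ZMod l), ?_⟩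
  dsimp only
  refine ⟨by omega, fun h56 => ?_, by omega⟩
  have h0 : kf (toLin' (g : GL (Fin 56) (ZMod 2)).val) = ⊤ :=
    Submodule.eq_top_of_finrank_eq (by rw [Module.finrank_fin_fun]; unfold dm at e2; omega)
  have : g = 1 := Subtype.ext (Units.ext (toLin'.injective (LinearMap.ext fun v =>
    (mem_kf.1 (Submodule.eq_top_iff'.1 h0 v)).trans (one_mulVec v).symm)))
  rw [this, orderOf_one] at hg
  exact hp.ne_one hg.symm

theorem jobRep (hW : JobW) : JobRep := by
  obtain ⟨φ⟩ := exists_equiv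
  let ρ : Representation (ZMod 2) (chevE7.group (ZMod 2)) V56 :=
    (toLinAlgEquiv' (R := ZMod 2) (n := Fin 56)).toMonoidHom.comp ((Units.coeHom _).comp
      ((rep56.G (ZMod 2)).subtype.comp φ.symm.toMonoidHom))
  have hρ : ∀ g : rep56.G (ZMod 2), ρ (φ g) = toLin' (g : GL (Fin 56) (ZMod 2)).val := fun g => by
    simp only [ρ, MonoidHom.comp_apply, MulEquiv.coe_toMonoidHom, MulEquiv.symm_apply_apply]
    rfl
  have hx : ∀ r < chevE7.nroots, ∀ v, ρ (φ ⟨rep56.xU (ZMod 2) r 1, rep56.xU_mem r 1⟩) v =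
      v + rep56.A (ZMod 2) r *ᵥ v := fun r hr v => by
    rw [hρ, toLin'_apply, Rep.xU_val, rep56.x_eq hr, A2_56]
    simp [add_mulVec]
  have hr : ∀ r ∈ [32, 47, 52, 56, 59, 61, 62, 95, 110, 115, 119, 122, 124, 125],
      r < chevE7.nroots := by decide
  have hA : ∀ r i j, rep56.A (ZMod 2) r i j = (aW r i j : ZMod 2) := fun r i j => rfl
  haveI : Fact (Nat.Prime 5) := ⟨by norm_num⟩
  have hφ : ∀ g, orderOf (φ g) = orderOf g := fun g => orderOf_injective φ.toMonoidHom φ.injective g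
  refine ⟨ρ, ⟨fun g hg => ?_, fun g hg => ?_⟩, ?_⟩
  · obtain ⟨g, rfl⟩ := φ.surjective g
    obtain ⟨a, h1, h2, h3⟩ := count (l := 5) (by norm_num) g (hφ g ▸ hg)
    have := hW.2 a h3
    rw [fd, hρ, h1]
    simp only [Finset.mem_insert, Finset.mem_singleton] at this
    omega
  · obtain ⟨g, rfl⟩ := φ.surjective g
    obtain ⟨a, h1, h2, -⟩ := count (l := 3) (by norm_num) g (hφ g ▸ hg)
    have := hW.1 a
    rw [fd, hρ, h1]
    simp only [Finset.mem_insert, Finset.mem_singleton] at this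
    omega
  · rintro (⟨v, h0, hv⟩ | ⟨f, h0, hf⟩)
    · refine h0 (funext fun j => ?_)
      obtain ⟨r, h1, i, h2, h3⟩ := row_one j
      have h4 := congrFun (add_eq_left.1 ((hx r (hr r h1) v).symm.trans (hv _))) i
      rw [mulVec, dotProduct, Finset.sum_eq_single j (fun j' _ e => by simp [hA, h3 j' e])
        (by simp)] at h4
      exact (mul_eq_zero.1 h4).resolve_left (sgn_ne_zero h2)
    · refine h0 (LinearMap.pi_ext fun i x => ?_)
      obtain ⟨r, h1, j, h2, h3⟩ := col_one i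
      have h4 := hf (φ ⟨rep56.xU (ZMod 2) r 1, rep56.xU_mem r 1⟩) (Pi.single j 1)
      rw [hx r (hr r h1), map_add, add_eq_left] at h4
      have h5 : rep56.A (ZMod 2) r *ᵥ Pi.single j 1 = (aW r i j : ZMod 2) • Pi.single i 1 := by
        funext i'
        by_cases e : i' = i
        · simp [e, hA]
        · simp [e, hA, h3 i' e]
      rw [h5, map_smul, smul_eq_mul] at h4
      rw [show (Pi.single i x : V56) = x • Pi.single i 1 by simp [← Pi.single_smul'], map_smul,
        (mul_eq_zero.1 h4).resolve_left (sgn_ne_zero h2)]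
      simp

end H55.E7S
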