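/- A7 tower: centralisers of graph involutions in dimensions four and five, characteristic seven. -/
import Cfsg.Agent.H58.GData
import Cfsg.Agent.H54.SpAutDefs
import Cfsg.Agent.S0245
import Cfsg.Agent.S0286
import Cfsg.Agent.S0287
import Cfsg.Agent.S0288

set_option autoImplicit false

namespace H55.A7G
open Subgroup Cfsg H58

variable {K : Type} [Field K] [Fintype K]

theorem seven_dvd (h7 : (7 : K) = 0) : 7 ∣ Fintype.card K := by
  haveI : Fact (Nat.Prime 7) := ⟨by norm_num⟩
  haveI : CharP K 7 := (CharP.charP_iff_prime_eq_zero Fact.out).2 (by simpa using h7)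
  obtain ⟨n, -, e⟩ := FiniteField.card K 7
  exact e ▸ dvd_pow_self 7 n.2.ne'

theorem pgo {ι : Type} [Fintype ι] [DecidableEq ι] [Nonempty ι] (h7 : (7 : K) = 0) (Q : (ι → K) → K)
    (h : Fintype.card K ^ 2 ∣ Nat.card (isometryGroup K Q)) : 49 ∣ Nat.card (PGO K Q) := by
  have d := seven_dvd h7
  have a : 7 ^ 2 ∣ Nat.card (Geo.quadSimilarityGroup (F := K) Q) := ((pow_dvd_pow_of_dvd d 2).trans h).trans
    (card_dvd_of_le fun g hg => ⟨1, fun v => by simpa using hg v v⟩)
  rw [card_eq_card_quotient_mul_card_subgroup ((Geo.scalars ι K).subgroupOf _)] at a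
  refine Nat.Coprime.dvd_of_dvd_mul_right (Nat.Coprime.pow_left 2 ((Nat.Prime.coprime_iff_not_dvd (p := 7)
    (by norm_num)).2 fun k => ?_)) a
  have b := card_comap_dvd_of_injective (Geo.scalars ι K) _ (Geo.quadSimilarityGroup (F := K) Q).subtype_injective
  have c := k.trans b
  rw [card_scalars, Nat.card_units, Nat.card_eq_fintype_card] at c
  have := Fintype.card_pos (α := K)
  omega

theorem dvd49 {X : Type*} [Group X] {D I : Subgroup X} {P : X → Prop} {n N : ℕ}
    {R : X → LinearMap.BilinForm K (Fin n → K) → Prop} (G : GD D I P N R) (h7 : (7 : K) = 0) (hn : n = 4 ∨ n = 5)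
    {γ : X} (hγ : P γ) (h2 : orderOf γ = 2) : 49 ∣ Nat.card (D ⊓ centralizer {γ} : Subgroup X) := by
  have t : (2 : K) ≠ 0 := fun h => one_ne_zero (by linear_combination h7 - 3 * h : (1 : K) = 0)
  have d := seven_dvd h7
  rcases hn with rfl | rfl
  · obtain ⟨B, hB, r⟩ := G.ex_form γ hγ h2
    obtain ⟨e⟩ := G.cent hB r
    rw [Nat.card_congr e.toEquiv]
    rcases hB.2 with s | s
    · by_cases p : IsPlus (tq B)
      · obtain ⟨e⟩ := proj_equiv_PGO_plus (m := 2) t hB.1 s (by simp) p
        rw [Nat.card_congr e.toEquiv]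
        exact pgo h7 _ (by rw [Agent.S0287.result rfl 2 one_le_two]; exact ((dvd_mul_left _ _).mul_right _).mul_right _)
      · obtain ⟨a, b, hab⟩ := exists_aniso_pair K
        obtain ⟨e⟩ := proj_equiv_PGO_minus (m := 2) t hB.1 s (by simp) p hab
        rw [Nat.card_congr e.toEquiv]
        exact pgo h7 _ (by rw [Agent.S0288.result rfl 2 one_le_two a b hab]; exact ((dvd_mul_left _ _).mul_right _).mul_right _)
    · obtain ⟨e⟩ := proj_equiv_PGSp (m := 2) hB.1 s (by simp)
      rw [Nat.card_congr e.toEquiv, H54.card_PGSp one_le_two, Agent.S0245.result rfl]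
      exact ((pow_dvd_pow_of_dvd d 2).trans (pow_dvd_pow _ (by norm_num))).mul_right _
  · obtain ⟨⟨e⟩, -⟩ := G.odd (m := 2) rfl hγ h2 hγ h2
    rw [Nat.card_congr e.toEquiv]
    refine pgo h7 _ ?_
    rw [Agent.S0286.result rfl (Nat.odd_iff.2 (FiniteField.odd_card_of_char_ne_two fun k => t ?_ )) 2]
    · exact ((pow_dvd_pow _ (by norm_num)).mul_left _).mul_right _
    · simpa [k] using ringChar.Nat.cast_ringChar (R := K)

end H55.A7G
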