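import Cfsg.Agent.H53.DGSpec2

/-! Tower DG (S4984): the covering of the pairs of primes for the groups of type `D`. -/

set_option autoImplicit false

namespace H55.DGFP

open Cfsg H53.DG Finset

/-- The primes of the order that are not the characteristic. -/
def T (q n r : ℕ) : Prop :=
  (∃ j, 1 ≤ j ∧ j ≤ n ∧ r ∣ q ^ j - 1) ∨ ∃ i, 1 ≤ i ∧ i < n ∧ r ∣ q ^ i + 1

theorem two_mul_eq (q h : ℕ) : q ^ (2 * h) - 1 = (q ^ h + 1) * (q ^ h - 1) := by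
  rw [← Nat.sq_sub_sq, one_pow, ← pow_mul, mul_comm]

theorem T_of {q n r : ℕ} (hr : r.Prime) (hn : 1 ≤ n) (h : r ∣ q * (q ^ n - 1) * NN q (n - 1))
    (hq : ¬ r ∣ q) : T q n r := by
  rcases (Nat.Prime.dvd_mul hr).1 h with h | h
  · exact .inl ⟨n, hn, le_rfl, ((Nat.Prime.dvd_mul hr).1 h).resolve_left hq⟩
  obtain ⟨i, hi, h⟩ := (hr.prime.dvd_finsetProd_iff _).1 h
  rw [mem_Icc] at hi
  rw [two_mul_eq] at h
  rcases (Nat.Prime.dvd_mul hr).1 h with h | h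
  · exact .inr ⟨i, hi.1, by omega, h⟩
  · exact .inl ⟨i, hi.1, by omega, h⟩

theorem X_dvd {q m k n d D : ℕ} (hq : 2 ≤ q) (hmk : m < k) (hkn : k ≤ n)
    (h : D * (q ^ k - 1) = d * ∏ j ∈ Ioc m n, sv q 1 j) :
    (∀ j, m < j → j ≤ n → j ≠ k → d * (q ^ j - 1) ∣ D) ∧ ∀ i, m ≤ i → i < n → q ^ i + 1 ∣ D := by
  have h0 : 0 < q ^ k - 1 := Nat.sub_pos_of_lt (Nat.one_lt_pow (by omega) hq)
  simp only [sv, prod_mul_distrib, mul_one] at h
  rw [← mul_prod_erase _ _ (mem_Ioc.2 ⟨hmk, hkn⟩)] at h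
  have e : D = d * ((∏ j ∈ (Ioc m n).erase k, (q ^ j - 1)) * ∏ j ∈ Ioc m n, (q ^ (j - 1) + 1)) :=
    Nat.eq_of_mul_eq_mul_right h0 (by rw [h]; ring)
  refine ⟨fun j h1 h2 h3 => e ▸ Nat.mul_dvd_mul_left _ (Dvd.dvd.mul_right
    (dvd_prod_of_mem (fun j => q ^ j - 1) (mem_erase.2 ⟨h3, mem_Ioc.2 ⟨h1, h2⟩⟩)) _),
    fun i h1 h2 => e ▸ Dvd.dvd.mul_left (Dvd.dvd.mul_left ?_ _) _⟩
  exact dvd_prod_of_mem (fun j => q ^ (j - 1) + 1) (a := i + 1) (mem_Ioc.2 ⟨by omega, by omega⟩)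

theorem sq_dvd {q e : ℕ} (he : Even e) : q ^ 2 - 1 ∣ q ^ e - 1 :=
  Nat.pow_sub_one_dvd_pow_sub_one q he.two_dvd

theorem add_dvd (q : ℕ) : q ^ 1 + 1 ∣ q ^ 2 - 1 := ⟨_, two_mul_eq q 1⟩

theorem sub_dvd (q : ℕ) : q ^ 1 - 1 ∣ q ^ 2 - 1 := Nat.pow_sub_one_dvd_pow_sub_one q (one_dvd _)

theorem eight {q D : ℕ} (h : q ^ 2 - 1 ∣ D) (hq : Odd q) : 8 ∣ D :=
  (Nat.eight_dvd_sq_sub_one_of_odd hq).trans h

/-- Covering all of `T` when the missing exponent is even or excluded. -/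
theorem T.dvd {q n k r D : ℕ} (hr : r.Prime) (h : T q n r) (hkn : k ≤ n) (h2 : q ^ 2 - 1 ∣ D)
    (h3 : ∀ j, 2 < j → j ≤ n → j ≠ k → q ^ j - 1 ∣ D) (h4 : ∀ i, 2 ≤ i → i < n → q ^ i + 1 ∣ D)
    (hk : Even k ∨ ¬ r ∣ q ^ k - 1) : r ∣ D := by
  have a : ∀ j, 1 ≤ j → j ≤ n → j ≠ k ∨ j ≤ 2 → q ^ j - 1 ∣ D := fun j j1 j2 j3 => by
    by_cases h : j ≤ 2
    · interval_cases j
      exacts [(sub_dvd q).trans h2, h2]
    · exact h3 j (by omega) j2 (by omega)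
  have b : ∀ i, 1 ≤ i → i < n → q ^ i + 1 ∣ D := fun i i1 i2 => by
    rcases i1.eq_or_lt with rfl | h
    exacts [(add_dvd q).trans h2, h4 i h i2]
  rcases h with ⟨j, j1, j2, h⟩ | ⟨i, i1, i2, h⟩
  · by_cases e : j = k
    · subst e
      obtain ⟨c, rfl⟩ := (hk.resolve_right (not_not.2 h)).two_dvd
      rw [two_mul_eq] at h
      rcases (Nat.Prime.dvd_mul hr).1 h with h | h
      · exact h.trans (b c (by omega) (by omega))
      · exact h.trans (a c (by omega) (by omega) (by omega))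
    · exact h.trans (a j j1 j2 (.inl e))
  · exact h.trans (b i i1 i2)

theorem dvd_of_res {q D d r : ℕ} (hr : r.Prime) (h4 : D ∣ 4 * d) (h2 : Even q → D ∣ 2 * d) (h : r ∣ D)
    (h8 : r = 2 → (Odd q → 8 ∣ D) ∧ (Even q → 4 ∣ D)) : r ∣ d := by
  by_cases e : r = 2
  · subst e
    rcases q.even_or_odd with hq | hq
    · have := ((h8 rfl).2 hq).trans (h2 hq); omega
    · have := ((h8 rfl).1 hq).trans h4; omega
  · refine ((Nat.Prime.dvd_mul hr).1 (h.trans h4)).resolve_left fun h => e ?_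
    exact (Nat.prime_dvd_prime_iff_eq hr Nat.prime_two).1 (hr.dvd_of_dvd_pow (n := 2) h)

theorem full_of {G : Type} [Group G] {F : Type} [Field F] [Fintype F] {N : ℕ}
    (A : ∃ d ∈ charDegrees G, ∀ r, r.Prime → r ∣ N → ¬ r ∣ Fintype.card F → r ∣ d)
    (B : ∀ r, r.Prime → r ∣ N → ¬ r ∣ Fintype.card F →
      ∃ d ∈ charDegrees G, r ∣ d ∧ ∀ s, s.Prime → s ∣ Fintype.card F → s ∣ d) : Full G N := by
  intro r s hr hs hrs h1 h2
  have k : ∀ {d}, r ∣ d → s ∣ d → r * s ∣ d := ((Nat.coprime_primes hr hs).2 hrs).mul_dvd_of_dvd_of_dvd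
  by_cases a : r ∣ Fintype.card F <;> by_cases b : s ∣ Fintype.card F
  · obtain ⟨p, _, e, hp, he⟩ := FiniteField.card' F
    rw [he] at a b
    exact absurd (((Nat.prime_dvd_prime_iff_eq hr hp).1 (hr.dvd_of_dvd_pow a)).trans
      ((Nat.prime_dvd_prime_iff_eq hs hp).1 (hs.dvd_of_dvd_pow b)).symm) hrs
  · obtain ⟨d, hd, c, e⟩ := B s hs h2 b
    exact ⟨d, hd, k (e r hr a) c⟩
  · obtain ⟨d, hd, c, e⟩ := B r hr h1 a
    exact ⟨d, hd, k c (e s hs b)⟩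
  · obtain ⟨d, hd, c⟩ := A
    exact ⟨d, hd, k (c r hr h1 a) (c s hs h2 b)⟩

theorem four_dvd {F : Type} [Field F] [Fintype F] (h : Fintype.card F ≠ 2)
    (he : Even (Fintype.card F)) : 4 ∣ Fintype.card F := by
  obtain ⟨p, _, ⟨e, h0⟩, hp, e1⟩ := FiniteField.card' F
  rw [e1] at h he ⊢
  obtain rfl := (hp.even_iff).1 (Nat.even_pow.1 he).1
  refine pow_dvd_pow 2 (show 2 ≤ e from ?_)
  by_contra h1
  obtain rfl : e = 1 := by omega
  exact h rfl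

theorem jobFP (gen : AGen) (ps : APS) (res : ARes) (bo : ABO) : AFP := fun F _ _ _ n h4 h5 => by
  have hq : 2 ≤ Fintype.card F := Fintype.one_lt_card
  have hA := zero_an F true
  have G : ∀ m k d, n = m + k → 2 ≤ k → (k = 2 → Fintype.card F ≠ 2) →
      d = 1 ∨ ((zero F true).ext m).PS d →
      ∃ D, D * (Fintype.card F ^ k - 1) = d * ∏ j ∈ Ioc m n, sv (Fintype.card F) 1 j ∧
        ((zero F true).ext n).Deg' D ∧
        (3 ≤ k ∨ (k = 2 ∧ 4 ≤ Fintype.card F) → ((zero F true).ext n).Deg D) := by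
    rintro m k d rfl h1 h2 h3
    simpa only [zero_a_true] using gen F _ _ hA m k d (by omega) (by omega) (by omega) h3
  obtain ⟨R, ⟨f, f1, f2⟩, g, g1, g2⟩ := res F _ _ hA rfl n (by omega)
  obtain ⟨-, d2, p2, -, e2⟩ := ps F _ _ hA 2 le_rfl
  obtain ⟨⟨f3, pf, -, ef⟩, d3, p3, -, e3⟩ := ps F _ _ hA 3 (by omega)
  have hB := ((bo F).2.1 n h4).2.1
  have h4q := four_dvd (F := F)
  rw [zero_a_true] at f2 g2 e2 ef e3
  refine full_of (F := F) ?_ fun r hr h1 h2 => ?_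
  · obtain ⟨m, k, e, hm, hk⟩ : ∃ m k, n = m + k ∧ m ≤ 1 ∧ Even k := by
      rcases n.even_or_odd with h | ⟨c, h⟩
      exacts [⟨0, n, by omega, by omega, h⟩, ⟨1, 2 * c, by omega, le_rfl, even_two_mul c⟩]
    have k4 : 4 ≤ k := by obtain ⟨c, rfl⟩ := hk; omega
    obtain ⟨D, h1, -, h2⟩ := G m k 1 e (by omega) (by omega) (.inl rfl)
    obtain ⟨x1, x2⟩ := X_dvd hq (by omega) (by omega) h1
    simp only [one_mul] at x1
    obtain ⟨d, hd, a, b⟩ := R D (.inl (h2 (.inl (by omega))))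
    have y := x1 2 (by omega) (by omega) (by omega)
    exact ⟨d, hd, fun r hr r1 r2 => dvd_of_res hr a b ((T_of hr (by omega) r1 r2).dvd hr (by omega) y
      (fun j a b c => x1 j (by omega) b c) (fun i a b => x2 i (by omega) b) (.inl hk))
      fun e => ⟨eight y, fun h => absurd (e ▸ h.two_dvd) r2⟩⟩
  have hT := T_of hr (by omega) h1 h2
  generalize Fintype.card F = q at *
  have key : ∀ D, ((zero F true).ext n).Deg D ∨ (((zero F true).ext n).Deg' D ∧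
      ((zero F true).ext n).neg ∉ commutator ((zero F true).ext n).I) → q ∣ D → q ^ 2 - 1 ∣ D →
      (Even q → 4 ∣ D) → r ∣ D → ∃ d ∈ charDegrees ((zero F true).ext n).PO, r ∣ d ∧
        ∀ s, s.Prime → s ∣ q → s ∣ d := fun D a b c e h => by
    obtain ⟨d, hd, x, y⟩ := R D a
    exact ⟨d, hd, dvd_of_res hr x y h fun _ => ⟨eight c, e⟩,
      fun s hs h' => dvd_of_res hs x y (h'.trans b) fun _ => ⟨eight c, e⟩⟩
  obtain ⟨t, rfl⟩ : ∃ t, q = t + 1 := ⟨q - 1, by omega⟩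
  have t0 : 0 < t * (t + 2) := Nat.mul_pos (by omega) (by omega)
  have s2 : (t + 1) ^ 2 - 1 = t * (t + 2) := Nat.sub_eq_of_eq_add (by ring)
  have s3 : (t + 1) ^ 3 - 1 = t * (t ^ 2 + 3 * t + 3) := Nat.sub_eq_of_eq_add (by ring)
  have s4 : (t + 1) ^ 4 - 1 = t * (t + 2) * ((t + 1) ^ 2 + 1) := Nat.sub_eq_of_eq_add (by ring)
  have s5 : (t + 1) ^ 5 - 1 = t * (t ^ 4 + 5 * t ^ 3 + 10 * t ^ 2 + 10 * t + 5) :=
    Nat.sub_eq_of_eq_add (by ring)
  simp only [Nat.add_sub_cancel, Nat.reduceSub, pow_one, mul_one, s2, s3] at e2 ef e3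
  obtain rfl : d2 = (t + 1) ^ 2 := Nat.eq_of_mul_eq_mul_right t0 (by linear_combination e2)
  obtain rfl : f3 = (t + 1) * (t ^ 2 + 3 * t + 3) :=
    Nat.eq_of_mul_eq_mul_right t0 (by linear_combination ef)
  obtain rfl : d3 = (t + 1) ^ 2 * ((t + 1) ^ 2 + 1) :=
    Nat.eq_of_mul_eq_mul_right t0 (by linear_combination e3)
  have sq4 : ∀ {D}, (t + 1) ^ 2 ∣ D → Even (t + 1) → 4 ∣ D := fun h e =>
    (pow_dvd_pow_of_dvd e.two_dvd 2).trans h
  rcases h4.eq_or_lt with rfl | h4'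
  · by_cases hq4 : 4 ≤ t + 1
    · obtain ⟨D, a, -, b⟩ := G 2 2 _ rfl le_rfl (by omega) (.inr p2)
      simp only [show Ioc 2 4 = {3, 4} by decide, prod_pair (show 3 ≠ 4 by decide), sv,
        Nat.reduceSub, mul_one, s2, s3, s4] at a
      have e : D = (t + 1) ^ 2 * (t * (t + 2) * ((t + 1) ^ 2 + 1)) * ((t + 1) ^ 2 + 1) *
          (t ^ 2 + 3 * t + 3) * (t ^ 2 + t + 1) :=
        Nat.eq_of_mul_eq_mul_right t0 (by linear_combination a)
      have c : (t + 1) ^ 2 - 1 ∣ D := by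
        rw [s2, e]; exact Dvd.intro ((t + 1) ^ 2 * ((t + 1) ^ 2 + 1) ^ 2 * (t ^ 2 + 3 * t + 3) *
          (t ^ 2 + t + 1)) (by ring)
      have c2 : (t + 1) ^ 2 ∣ D := by rw [e]; simp only [mul_assoc]; exact dvd_mul_right _ _
      refine key D (.inl (b (.inr ⟨rfl, hq4⟩))) ((dvd_pow_self _ two_ne_zero).trans c2) c (sq4 c2)
        (hT.dvd (k := 4) hr le_rfl c (fun j a b c => ?_) (fun i a b => ?_) (.inl (by decide)))
      · obtain rfl : j = 3 := by omega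
        rw [s3, e]
        exact Dvd.intro ((t + 1) ^ 2 * (t + 2) * ((t + 1) ^ 2 + 1) ^ 2 * (t ^ 2 + t + 1)) (by ring)
      · interval_cases i <;> rw [e]
        · exact ((dvd_mul_left _ _).mul_right _).mul_right _
        · exact Dvd.intro ((t + 1) ^ 2 * t * ((t + 1) ^ 2 + 1) ^ 2 * (t ^ 2 + 3 * t + 3)) (by ring)
    have : r ∣ f * g := by
      refine hr.dvd_of_dvd_pow (n := 12) (h1.trans ?_)
      obtain rfl | rfl : t = 1 ∨ t = 2 := by omega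
      · rw [show f = 50 by omega, show g = 84 by omega]; decide +kernel
      · rw [show f = 300 by omega, show g = 819 by omega]; decide +kernel
    have b : t + 1 ∣ f ∧ t + 1 ∣ g := by
      obtain rfl | rfl : t = 1 ∨ t = 2 := by omega
      all_goals omega
    rcases (Nat.Prime.dvd_mul hr).1 this with h | h
    exacts [⟨f, f1, h, fun s _ h => h.trans b.1⟩, ⟨g, g1, h, fun s _ h => h.trans b.2⟩]
  obtain ⟨e, e1, e2, e3⟩ : ∃ e, Even e ∧ n - 1 ≤ e ∧ e ≤ n := by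
    rcases n.even_or_odd with h | ⟨c, h⟩
    exacts [⟨n, h, by omega, le_rfl⟩, ⟨2 * c, even_two_mul c, by omega, by omega⟩]
  by_cases hk : Even (n - 2) ∨ ¬ r ∣ (t + 1) ^ (n - 2) - 1
  · obtain ⟨D, a, -, b⟩ := G 2 (n - 2) _ (by omega) (by omega) (by omega) (.inr p2)
    obtain ⟨x1, x2⟩ := X_dvd hq (by omega) (by omega) a
    have y := x1 e (by omega) e3 (by omega)
    have c := (sq_dvd e1).trans (dvd_of_mul_left_dvd y)
    have c2 := dvd_of_mul_right_dvd y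
    exact key D (.inl (b (.inl (by omega)))) ((dvd_pow_self _ two_ne_zero).trans c2) c (sq4 c2)
      (hT.dvd hr (by omega) c (fun j a b c => dvd_of_mul_left_dvd (x1 j a b c)) x2 hk)
  rw [not_or, not_not, Nat.not_even_iff_odd] at hk
  obtain ⟨⟨c, hc⟩, hk⟩ := hk
  by_cases h7 : 7 ≤ n
  · obtain ⟨D, a, -, b⟩ := G 3 (n - 3) _ (by omega) (by omega) (by omega) (.inr p3)
    obtain ⟨x1, -⟩ := X_dvd hq (by omega) (by omega) a
    have y := x1 e (by omega) e3 (by omega)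
    have c2 := dvd_of_mul_right_dvd (dvd_of_mul_right_dvd y)
    exact key D (.inl (b (.inl (by omega)))) ((dvd_pow_self _ two_ne_zero).trans c2)
      ((sq_dvd e1).trans (dvd_of_mul_left_dvd y)) (sq4 c2)
      (hk.trans (dvd_of_mul_left_dvd (x1 _ (by omega) (by omega) (by omega))))
  obtain rfl : n = 5 := by omega
  obtain ⟨D, a, b', b⟩ := G 3 2 _ rfl le_rfl (by omega) (.inr pf)
  simp only [show Ioc 3 5 = {4, 5} by decide, prod_pair (show 4 ≠ 5 by decide), sv,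
    Nat.reduceSub, mul_one, s2, s4, s5] at a
  have e : D = (t + 1) * ((t ^ 2 + 3 * t + 3) * ((t + 1) ^ 2 + 1) * ((t + 2) * (t ^ 2 + t + 1)) *
      (t * (t ^ 4 + 5 * t ^ 3 + 10 * t ^ 2 + 10 * t + 5)) * ((t + 1) ^ 4 + 1)) :=
    Nat.eq_of_mul_eq_mul_right t0 (by linear_combination a)
  have c1 : t + 1 ∣ D := ⟨_, e⟩
  refine key D ?_ c1 ?_ (fun h => (h4q (by omega) h).trans c1) (hk.trans ?_)
  · by_cases hq4 : 4 ≤ t + 1
    · exact .inl (b (.inr ⟨rfl, hq4⟩))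
    · obtain rfl : t = 2 := by omega
      exact .inr ⟨b', hB (by norm_num)⟩
  · rw [s2, e]
    exact Dvd.intro ((t + 1) * (t ^ 2 + 3 * t + 3) * ((t + 1) ^ 2 + 1) * (t ^ 2 + t + 1) *
      (t ^ 4 + 5 * t ^ 3 + 10 * t ^ 2 + 10 * t + 5) * ((t + 1) ^ 4 + 1)) (by ring)
  · rw [show 5 - 2 = 3 from rfl, s3, e]
    exact Dvd.intro ((t + 1) * ((t + 1) ^ 2 + 1) * ((t + 2) * (t ^ 2 + t + 1)) *
      (t ^ 4 + 5 * t ^ 3 + 10 * t ^ 2 + 10 * t + 5) * ((t + 1) ^ 4 + 1)) (by ring)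

end H55.DGFP
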