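/- Characteristic polynomials of Weyl group elements twisting a torus element. -/
import Cfsg.Agent.H67.TorSpec
import Mathlib.RingTheory.Polynomial.Cyclotomic.Roots
import Mathlib.LinearAlgebra.Eigenspace.Zero
import Mathlib.LinearAlgebra.Matrix.Charpoly.Eigs
import Mathlib.Analysis.Complex.Polynomial.Basic

set_option autoImplicit false
set_option linter.unusedSectionVars false

namespace H55.WC

open Polynomial Matrix

/-- All complex roots are roots of unity. -/
def Uni (P : ℤ[X]) : Prop := ∀ z : ℂ, aeval z P = 0 → ∃ m, 0 < m ∧ z ^ m = 1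

theorem Uni.of_dvd {P Q : ℤ[X]} (h : Uni P) (hQ : Q ∣ P) : Uni Q := fun z hz => h z (by
  obtain ⟨R, rfl⟩ := hQ
  rw [map_mul, hz, zero_mul])

theorem cyc_dvd {p : ℕ} [hp : Fact p.Prime] (a : ℤ) {P : ℤ[X]} (hm : P.Monic) (hu : Uni P)
    (hd : P.natDegree < p - 1) (h : (p : ℤ) ∣ P.eval a) :
    cyclotomic (orderOf (a : ZMod p)) ℤ ∣ P := by
  induction hn : P.natDegree using Nat.strong_induction_on generalizing P with
  | _ n ih =>
  have hp' : Prime (p : ℤ) := Nat.prime_iff_prime_int.1 hp.out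
  by_cases h0 : P.natDegree = 0
  · rw [hm.natDegree_eq_zero] at h0
    rw [h0, eval_one] at h
    exact absurd (isUnit_of_dvd_one h) hp'.not_isUnit
  obtain ⟨z, hz⟩ := IsAlgClosed.exists_aeval_eq_zero_of_injective ℂ (algebraMap ℤ ℂ).injective_int P
    (by rw [degree_eq_natDegree hm.ne_zero]; exact_mod_cast h0)
  obtain ⟨m, hm0, hzm⟩ := hu z hz
  have hd0 : 0 < orderOf z := (isOfFinOrder_iff_pow_eq_one.2 ⟨m, hm0, hzm⟩).orderOf_pos
  have hpr := IsPrimitiveRoot.orderOf z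
  obtain ⟨R, hR⟩ : cyclotomic (orderOf z) ℤ ∣ P := by
    rw [cyclotomic_eq_minpoly hpr hd0]
    exact minpoly.isIntegrallyClosed_dvd (hpr.isIntegral hd0) hz
  have hRm : R.Monic := (cyclotomic.monic _ ℤ).of_mul_monic_left (hR ▸ hm)
  have hdeg : P.natDegree = (orderOf z).totient + R.natDegree := by
    rw [hR, (cyclotomic.monic _ ℤ).natDegree_mul hRm, natDegree_cyclotomic]
  have ht := Nat.totient_pos.2 hd0
  rw [hR, eval_mul] at h
  rcases hp'.dvd_or_dvd h with h | h
  · have hpd : ¬ p ∣ orderOf z := fun hpd => by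
      have := Nat.le_of_dvd ht (Nat.totient_dvd_of_dvd hpd)
      rw [Nat.totient_prime hp.out] at this
      omega
    have : NeZero ((orderOf z : ℕ) : ZMod p) := ⟨by rwa [Ne, ZMod.natCast_eq_zero_iff]⟩
    have h1 : (cyclotomic (orderOf z) (ZMod p)).IsRoot (a : ZMod p) := by
      rw [← map_cyclotomic_int, IsRoot, eval_intCast_map, Int.cast_id]
      exact (ZMod.intCast_zmod_eq_zero_iff_dvd _ _).2 h
    rw [← (isRoot_cyclotomic_iff.1 h1).eq_orderOf, hR]
    exact dvd_mul_right _ _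
  · exact (ih _ (by omega) hRm (hu.of_dvd ⟨_, hR.trans (mul_comm _ _)⟩) (by omega) h rfl).trans
      ⟨_, hR.trans (mul_comm _ _)⟩

variable {ι : Type*} [Fintype ι] [DecidableEq ι]

theorem uni_charpoly {A : Matrix ι ι ℤ} {m : ℕ} (hm : 0 < m) (h : A ^ m = 1) : Uni A.charpoly := by
  intro z hz
  refine ⟨m, hm, ?_⟩
  have h1 : (A.map (algebraMap ℤ ℂ)).charpoly.IsRoot z := by
    rw [charpoly_map, IsRoot, eval_map_algebraMap, hz]
  have h2 := spectrum.pow_mem_pow _ m (mem_spectrum_iff_isRoot_charpoly.2 h1)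
  rw [← RingHom.mapMatrix_apply, ← map_pow, h, map_one] at h2
  have : Nonempty ι := by
    by_contra h3
    rw [not_nonempty_iff] at h3
    rw [Matrix.charpoly_isEmpty] at h1
    simp at h1
  simpa using h2

/-- A simple root of the characteristic polynomial has proportional eigenvectors. -/
theorem prop_of_simple {A : Matrix ι ι ℤ} {ε : ℤ} {Q : ℤ[X]} (h : A.charpoly = Q * (X - C ε))
    (hQ : Q.eval ε ≠ 0) {u v : ι → ℤ} (hu : u ᵥ* A = ε • u) (hv : v ᵥ* A = ε • v) (i j : ι) :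
    u i * v j = u j * v i := by
  let φ : Module.End ℚ (ι → ℚ) := Matrix.toLin' (A.map (algebraMap ℤ ℚ))ᵀ
  have h1 := φ.finrank_eigenspace_le (ε : ℚ)
  have h2 : φ.charpoly = Q.map (algebraMap ℤ ℚ) * (X - C (ε : ℚ)) := by
    rw [charpoly_toLin', charpoly_transpose, charpoly_map, h]; simp
  have h3 : ¬ (Q.map (algebraMap ℤ ℚ)).IsRoot (ε : ℚ) := by
    rw [IsRoot, algebraMap_int_eq, eval_intCast_map]
    simpa using hQ
  have h4 : Q.map (algebraMap ℤ ℚ) ≠ 0 := fun e => h3 (by rw [e]; simp)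
  rw [h2, rootMultiplicity_mul (mul_ne_zero h4 (X_sub_C_ne_zero _)), rootMultiplicity_X_sub_C_self,
    rootMultiplicity_eq_zero h3] at h1
  obtain ⟨w, hw⟩ := finrank_le_one_iff.1 h1
  have key : ∀ u : ι → ℤ, u ᵥ* A = ε • u → ∃ c : ℚ, ∀ i, (u i : ℚ) = c * w.1 i := fun u hu => by
    obtain ⟨c, hc⟩ := hw ⟨fun i => (u i : ℚ), Module.End.mem_eigenspace_iff.2 (by
      ext k
      have := congrArg (fun x : ℤ => (x : ℚ)) (congrFun hu k)
      simpa [φ, vecMul, mulVec, dotProduct, mul_comm] using this)⟩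
    exact ⟨c, fun i => (congrFun (congrArg Subtype.val hc) i).symm⟩
  obtain ⟨c, hc⟩ := key u hu
  obtain ⟨d, hd⟩ := key v hv
  have : ((u i * v j : ℤ) : ℚ) = ((u j * v i : ℤ) : ℚ) := by
    push_cast; rw [hc, hc, hd, hd]; ring
  exact_mod_cast this

open Cfsg.Lie H63 H64 H65 H46 H67

variable {D : ChevalleyDatum} [RS D] {A : Type*} [CommGroup A]

theorem evR_aeval {c : Fin D.rank → A} {w : Equiv.Perm (Rt D)} {q : ℕ}
    (hc : ∀ r, chi D c (w r) = chi D c r ^ q) (P : ℤ[X]) (μ : Fin D.rank → ℤ) :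
    evR D c (μ ᵥ* aeval (Wm w) P) = evR D c μ ^ P.eval (q : ℤ) := by
  induction P using Polynomial.induction_on generalizing μ with
  | C a => rw [aeval_C, eval_C, Algebra.algebraMap_eq_smul_one, vecMul_smul, vecMul_one, evR_smul]
  | add P Q h1 h2 => rw [map_add, vecMul_add, evR_add, h1, h2, eval_add, _root_.zpow_add]
  | monomial n a h =>
    rw [pow_succ, ← mul_assoc, map_mul, aeval_X, ← vecMul_vecMul, evR_vecMul hc, h,
      eval_mul (q := Polynomial.X), eval_X, _root_.zpow_mul, zpow_natCast]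

theorem orderOf_dvd_charpoly (hk : cker D A = ⊥) {c : Fin D.rank → A} {w : Equiv.Perm (Rt D)}
    {q : ℕ} (hc : ∀ r, chi D c (w r) = chi D c r ^ q) :
    (orderOf c : ℤ) ∣ (Wm w).charpoly.eval (q : ℤ) := by
  rw [Int.natCast_dvd, orderOf_dvd_iff_pow_eq_one]
  refine pow_eq_one_of_chi hk fun i => ?_
  rw [← evR_single, ← orderOf_dvd_iff_pow_eq_one, ← Int.natCast_dvd, orderOf_dvd_iff_zpow_eq_one,
    ← evR_aeval hc, aeval_self_charpoly, vecMul_zero, evR_zero]

theorem Wm_pow_card {w : Equiv.Perm (Rt D)} (hw : IsLin w) : Wm w ^ orderOf w = 1 := by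
  ext i j
  have := congrFun (rt_pow_Wm hw (orderOf w) (simpleR i)) j
  rw [pow_orderOf_eq_one, Equiv.Perm.one_apply, rt_simpleR, single_one_vecMul] at this
  rw [one_apply]
  exact this.symm.trans (by simp [Pi.single_apply, eq_comm])

theorem form_Wm {w : Equiv.Perm (Rt D)} (hw : IsLin w) (x y : Fin D.rank → ℤ) :
    form (x ᵥ* Wm w) (y ᵥ* Wm w) = form x y := by
  obtain ⟨f, h1, h2⟩ := id hw
  have : f = (Wm w).vecMulLinear := by
    refine LinearMap.pi_ext' fun i => LinearMap.ext_ring ?_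
    simp only [LinearMap.comp_apply, LinearMap.single_apply, vecMulLinear_apply]
    rw [← rt_simpleR, ← h1, rt_apply_Wm hw]
  rw [← h2 x y, this]; rfl

end H55.WC
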