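/- The group E7(2) has no element of order 65. -/
import Cfsg.Agent.H55.WChar

set_option autoImplicit false
set_option linter.unusedSectionVars false

namespace H55.WC

open Polynomial Matrix Cfsg.Lie H63 H64 H65 H46 H67

theorem form_eq_dot {D : ChevalleyDatum} [RS D] (x y : Fin D.rank → ℤ) :
    form x y = ∑ i, x i * ∑ j, y j * gram i j := by
  simp only [form, Finset.mul_sum, mul_assoc]

def gE7 : Matrix (Fin 7) (Fin 7) ℤ :=
  !![2, 0, -1, 0, 0, 0, 0; 0, 2, 0, -1, 0, 0, 0; -1, 0, 2, -1, 0, 0, 0; 0, -1, -1, 2, -1, 0, 0;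
    0, 0, 0, -1, 2, -1, 0; 0, 0, 0, 0, -1, 2, -1; 0, 0, 0, 0, 0, -1, 2]

theorem gram_E7 (i j : Fin chevE7.rank) : gram i j = gE7 i j :=
  (by decide +kernel : ∀ z : Fin chevE7.rank × Fin chevE7.rank, gram z.1 z.2 = gE7 z.1 z.2) (i, j)

theorem gE7_even (a : Fin 7 → ℤ) (h' : ∀ i, Even (∑ j, a j * gE7 j i)) :
    (∑ i, a i * ∑ j, a j * gE7 i j) % 8 = 0 ∨ (∑ i, a i * ∑ j, a j * gE7 i j) % 8 = 6 := by
  have h0 := h' 0
  have h1 := h' 1
  have h2 := h' 2
  have h3 := h' 3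
  have h4 := h' 4
  have h5 := h' 5
  simp [Fin.sum_univ_seven, gE7, Int.even_iff, -EuclideanDomain.mod_eq_zero] at h0 h1 h2 h3 h4 h5 ⊢
  generalize a 0 = a0 at *
  generalize a 1 = a1 at *
  generalize a 2 = a2 at *
  generalize a 3 = a3 at *
  generalize a 4 = a4 at *
  generalize a 5 = a5 at *
  generalize a 6 = a6 at *
  obtain ⟨b0, rfl⟩ : ∃ b, a0 = 2 * b := ⟨a0 / 2, by omega⟩
  obtain ⟨b2, rfl⟩ : ∃ b, a2 = 2 * b := ⟨a2 / 2, by omega⟩
  obtain ⟨b3, rfl⟩ : ∃ b, a3 = 2 * b := ⟨a3 / 2, by omega⟩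
  obtain ⟨b5, rfl⟩ : ∃ b, a5 = 2 * b := ⟨a5 / 2, by omega⟩
  obtain ⟨t, ht, b1, rfl⟩ : ∃ t, (t = 0 ∨ t = 1) ∧ ∃ b, a1 = 2 * b + t :=
    ⟨a1 % 2, by omega, a1 / 2, by omega⟩
  obtain ⟨b4, rfl⟩ : ∃ b, a4 = 2 * b + t := ⟨a4 / 2, by omega⟩
  obtain ⟨b6, rfl⟩ : ∃ b, a6 = 2 * b + t := ⟨a6 / 2, by omega⟩
  have : ∀ x k : ℤ, x = 8 * k + 6 * t * t → x % 8 = 0 ∨ x % 8 = 6 := fun x k hx => by
    rcases ht with rfl | rfl <;> omega
  exact this _ (b0 ^ 2 + b1 ^ 2 + b2 ^ 2 + b3 ^ 2 + b4 ^ 2 + b5 ^ 2 + b6 ^ 2 + t * (b1 + b4 + b6)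
    - b0 * b2 - b2 * b3 - b1 * b3 - b3 * b4 - b4 * b5 - b5 * b6 - t * b3 - t * b5) (by ring)

/-- Norms of vectors of the lattice E7 with even inner products. -/
theorem e7_even (a : Fin chevE7.rank → ℤ) (h : ∀ i, Even (form a (rt (simpleR i)))) :
    form a a % 8 = 0 ∨ form a a % 8 = 6 := by
  rw [form_eq_dot]
  simp only [gram_E7]
  have h' : ∀ i : Fin chevE7.rank, Even (∑ j, a j * gE7 j i) := fun i => by
    have := h i
    rw [rt_simpleR, form_eq_dot] at this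
    simp only [Pi.single_apply, ite_mul, one_mul, zero_mul, Finset.sum_ite_eq', Finset.mem_univ,
      if_true] at this
    simpa only [gram_E7] using this
  exact gE7_even a h'

theorem e7_no {w : Equiv.Perm (Rt chevE7)} (hw : IsLin w) {ε : ℤ}
    (h : (Wm w).charpoly = (Polynomial.X ^ 6 + 1) * (Polynomial.X - C ε)) : False := by
  set A := Wm w with hA
  have hε : ε = 1 ∨ ε = -1 := by
    obtain ⟨m, hm, h1⟩ := uni_charpoly (orderOf_pos w) (Wm_pow_card hw) (ε : ℂ) (by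
      rw [← hA, h]; simp)
    exact Int.isUnit_iff.1 (IsUnit.of_pow_eq_one (by exact_mod_cast h1) hm.ne')
  have hε2 : ε * ε = 1 := by rcases hε with rfl | rfl <;> rfl
  have h1 : (A ^ 6 + 1) * A = ε • (A ^ 6 + 1) := by
    have := aeval_self_charpoly A
    rw [h] at this
    simp only [map_mul, map_add, map_pow, aeval_X, map_one, map_sub, aeval_C,
      Algebra.algebraMap_eq_smul_one, mul_sub, mul_smul_comm, mul_one, sub_eq_zero] at this
    exact this
  have h2 : ∀ x : Fin chevE7.rank → ℤ, (x ᵥ* (A ^ 6 + 1)) ᵥ* A = ε • (x ᵥ* (A ^ 6 + 1)) :=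
    fun x => by rw [vecMul_vecMul, h1, vecMul_smul]
  have h3 : ∀ n x y, form (x ᵥ* A ^ n) (y ᵥ* A ^ n) = form x y := fun n x y => by
    induction n with
    | zero => simp
    | succ n ih => rw [pow_succ, ← vecMul_vecMul, ← vecMul_vecMul, form_Wm hw, ih]
  have h4 : ∀ n (x : Fin chevE7.rank → ℤ),
      (x ᵥ* (A ^ 6 + 1)) ᵥ* A ^ n = ε ^ n • (x ᵥ* (A ^ 6 + 1)) := fun n x => by
    induction n with
    | zero => simp
    | succ n ih =>
      rw [pow_succ A n, ← vecMul_vecMul, ih, smul_vecMul, h2, smul_smul, pow_succ ε n]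
  have hε6 : ε ^ 6 = 1 := by rcases hε with rfl | rfl <;> rfl
  -- the symmetric form `β`
  have h5 : ∀ x y, form (x ᵥ* (A ^ 6 + 1)) (y ᵥ* (A ^ 6 + 1)) = 2 * form (x ᵥ* (A ^ 6 + 1)) y :=
    fun x y => by
      conv_lhs => rw [vecMul_add _ _ y, vecMul_one, form_add_right, ← one_smul ℤ (x ᵥ* (A ^ 6 + 1)),
        ← hε6, ← h4, h3, h4, hε6, one_smul]
      ring
  have h6 : ∀ x, Even (form (x ᵥ* (A ^ 6 + 1)) x) := fun x => by
    have e : form (x ᵥ* (A ^ 6 + 1)) x = ε ^ 3 * form (x ᵥ* (A ^ 6 + 1)) (x ᵥ* A ^ 3) := by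
      rw [← h3 3, h4, form_smul_left]
    have e2 : x ᵥ* A ^ 6 = (x ᵥ* A ^ 3) ᵥ* A ^ 3 := by rw [vecMul_vecMul, ← pow_add]
    rw [e, vecMul_add, vecMul_one, form_add_left, e2, h3, form_symm x, ← two_mul]
    exact (even_two_mul _).mul_left _
  have h7 : ∀ x y, form (x ᵥ* (A ^ 6 + 1)) x * form (y ᵥ* (A ^ 6 + 1)) y =
      form (x ᵥ* (A ^ 6 + 1)) y ^ 2 := fun x y => by
    have e : form (y ᵥ* (A ^ 6 + 1)) x = form (x ᵥ* (A ^ 6 + 1)) y := by
      have := h5 y x
      rw [form_symm, h5] at this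
      omega
    rw [sq]
    conv_rhs => rw [← e]; enter [1]; rw [e]
    simp only [form_eq_dot (x ᵥ* _), form_eq_dot (y ᵥ* _), Finset.sum_mul_sum]
    rw [Finset.sum_comm]
    refine Finset.sum_congr rfl fun i _ => Finset.sum_congr rfl fun j _ => ?_
    have := prop_of_simple h (by simp [hε6]) (h2 x) (h2 y) i j
    linear_combination (-(∑ k, x k * gram j k) * ∑ k, y k * gram i k) * this
  have h8 : ∀ x y, Even (form (x ᵥ* (A ^ 6 + 1)) y) := fun x y => by
    have := (h6 x).mul_right (form (y ᵥ* (A ^ 6 + 1)) y)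
    rw [h7] at this
    exact (Int.even_pow.1 this).1
  have hlen : ∀ r : Rt chevE7, form (rt r) (rt r) = 2 := by decide +kernel
  have h9 : ∀ i, rt (simpleR i) ᵥ* A ^ 6 = rt (simpleR i) ∨
      rt (simpleR i) ᵥ* A ^ 6 = - rt (simpleR (D := chevE7) i) := fun i => by
    set x := rt (simpleR (D := chevE7) i)
    have e1 := e7_even _ fun j => h8 x (rt (simpleR j))
    have e2 := h6 x
    have e3 : form (x ᵥ* A ^ 6) (x ᵥ* A ^ 6) = 2 := by rw [h3, hlen]
    have e4 : form x x = 2 := hlen _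
    have e5 := form_nonneg (x ᵥ* A ^ 6 - x)
    have e6 := form_nonneg (x ᵥ* A ^ 6 + x)
    rw [h5] at e1
    rw [vecMul_add, vecMul_one, form_add_left, e4] at e1 e2
    by_contra hc
    push Not at hc
    have e5 := form_pos (sub_ne_zero.2 hc.1)
    have e6 := form_pos (fun e => hc.2 (eq_neg_of_add_eq_zero_left e))
    simp only [form_sub_left, form_sub_right, form_add_left, form_add_right, e3, e4,
      form_symm x (x ᵥ* A ^ 6)] at e5 e6
    obtain ⟨k, hk⟩ := e2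
    omega
  have h10 : ∀ i j, form (rt (simpleR i)) (rt (simpleR (D := chevE7) j)) = gram i j :=
    fun i j => by simp [rt_simpleR, form, Pi.single_apply]
  have h11 : ∀ i j : Fin chevE7.rank, H63.gram i j = -1 → rt (simpleR i) ᵥ* A ^ 6 = - rt (simpleR (D := chevE7) i) ∧
      rt (simpleR j) ᵥ* A ^ 6 = - rt (simpleR (D := chevE7) j) := fun i j hij => by
    have e1 := h3 6 (rt (simpleR i)) (rt (simpleR j))
    have e2 := h7 (rt (simpleR i)) (rt (simpleR j))
    simp only [vecMul_add, vecMul_one, form_add_left] at e2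
    rcases h9 i with a | a <;> rcases h9 j with b | b
    · rw [a, b, hlen, hlen, h10, hij] at e2; omega
    · rw [a, b, form_neg_right, h10, hij] at e1; omega
    · rw [a, b, form_neg_left, h10, hij] at e1; omega
    · exact ⟨a, b⟩
  have h12 : A ^ 6 = -1 := by
    ext i j
    obtain ⟨k, hk⟩ := (by decide +kernel : ∀ i : Fin chevE7.rank, ∃ k, H63.gram i k = -1) i
    have := congrFun (h11 i k hk).1 j
    rw [rt_simpleR, single_one_vecMul] at this
    exact this.trans (by simp [Pi.single_apply, one_apply, eq_comm])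
  have h13 := congrArg det h12
  rw [det_pow, det_neg, det_one, Fintype.card_fin,
    show (-1 : ℤ) ^ chevE7.rank = -1 from by decide] at h13
  have h14 := (by decide : Even 6).pow_nonneg A.det
  rw [h13] at h14
  exact absurd h14 (by decide)

theorem e7_not_dvd {w : Equiv.Perm (Rt chevE7)} (hw : IsLin w) :
    ¬ (65 : ℤ) ∣ (Wm w).charpoly.eval 2 := fun h => by
  have hu := uni_charpoly (orderOf_pos w) (Wm_pow_card hw)
  have hm := (Wm w).charpoly_monic
  have hd : (Wm w).charpoly.natDegree = 7 := by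
    rw [charpoly_natDegree_eq_dim, Fintype.card_fin]; rfl
  have o1 : orderOf ((2 : ℤ) : ZMod 13) = 12 :=
    orderOf_eq_iff (by norm_num) |>.2 ⟨by decide, by decide⟩
  have o2 : orderOf ((2 : ℤ) : ZMod 5) = 4 :=
    orderOf_eq_iff (by norm_num) |>.2 ⟨by decide, by decide⟩
  have : Fact (Nat.Prime 13) := ⟨by norm_num⟩
  have : Fact (Nat.Prime 5) := ⟨by norm_num⟩
  have c4 : cyclotomic 4 ℤ = Polynomial.X ^ 2 + 1 := by
    rw [show (4 : ℕ) = 2 * 2 from rfl, ← cyclotomic_expand_eq_cyclotomic Nat.prime_two dvd_rfl,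
      cyclotomic_two]
    simp
  have c6 : cyclotomic 12 ℤ * cyclotomic 4 ℤ = Polynomial.X ^ 6 + 1 := by
    rw [show (12 : ℕ) = 4 * 3 from rfl,
      ← cyclotomic_expand_eq_cyclotomic_mul Nat.prime_three (by norm_num), c4]
    simp [← pow_mul]
  obtain ⟨R, hR⟩ := cyc_dvd (p := 13) 2 hm hu (by omega) (Dvd.dvd.trans (by norm_num) h)
  rw [o1] at hR
  have hRm : R.Monic := (cyclotomic.monic _ ℤ).of_mul_monic_left (hR ▸ hm)
  have hRd : R.natDegree = 3 := by
    rw [hR, (cyclotomic.monic _ ℤ).natDegree_mul hRm, natDegree_cyclotomic,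
      show Nat.totient 12 = 4 by decide] at hd
    omega
  have e13 : (cyclotomic 12 ℤ).eval 2 = 13 := by
    have := congrArg (eval 2) c6
    rw [eval_mul, c4] at this
    simp at this
    omega
  obtain ⟨S, hS⟩ := cyc_dvd (p := 5) 2 hRm (hu.of_dvd ⟨_, hR.trans (mul_comm _ _)⟩) (by omega) (by
    rw [hR, eval_mul, e13] at h
    omega)
  rw [o2] at hS
  have hSm : S.Monic := (cyclotomic.monic _ ℤ).of_mul_monic_left (hS ▸ hRm)
  have hSd : S.natDegree = 1 := by
    rw [hS, (cyclotomic.monic _ ℤ).natDegree_mul hSm, natDegree_cyclotomic,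
      show Nat.totient 4 = 2 by decide] at hRd
    omega
  refine e7_no hw (ε := - S.coeff 0) ?_
  rw [hR, hS, ← mul_assoc, c6, hSm.eq_X_add_C hSd]
  simp

attribute [local instance] H65.tabE7 H65.commE7

theorem e7_two_orderOf (g : ↥(chevE7.group (ZMod 2))) : orderOf g ≠ 65 := fun h => by
  have hk : cker chevE7 (AlgebraicClosure (ZMod 2))ˣ = ⊥ := eq_bot_iff.2 fun c hc => by
    have := kerE7.pow_eq_one' hc
    refine funext fun i => Units.ext ?_
    have h1 : ((c i : (AlgebraicClosure (ZMod 2))ˣ) : AlgebraicClosure (ZMod 2)) ^ 2 = 1 := by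
      have h0 : c i ^ 2 = 1 := congrFun this i
      rw [← Units.val_pow_eq_pow_val, h0, Units.val_one]
    rcases sq_eq_one_iff.1 h1 with h | h
    · exact h
    · rw [h, CharTwo.neg_eq]; rfl
  obtain ⟨c, w, u, e, a, h1, -, h2, h3, h4, h5, -, h6⟩ := exists_jordan hk 2 g
  rw [h] at h1
  have ha : a = 0 := by
    rcases a with _ | a
    · rfl
    · rw [pow_succ, ← mul_assoc] at h1; omega
  subst ha
  rw [pow_zero, pow_one] at h3
  have h7 := orderOf_dvd_of_jordan h4 h6 (pow_orderOf_eq_one c) (by rw [h3, one_pow])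
  rw [ZMod.card] at h5
  rw [h] at h7
  exact e7_not_dvd (isLin_W w) ((Int.natCast_dvd_natCast.2 h7).trans (orderOf_dvd_charpoly hk h5))

end H55.WC
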