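/- `(2,3,15)`-generation of `U₃(4)` and the configuration `CfgU`. -/
import Cfsg.Agent.H40.E7Spec
import Cfsg.Agent.H59.SU
import Cfsg.Agent.H87.Simple
import Cfsg.Agent.H49.Kit
import Cfsg.Agent.S0280
import Cfsg.Agent.S0283

set_option autoImplicit false
set_option Elab.async false

open Cfsg Matrix

namespace H55.E7U

universe u

/-- hexadecimal digit -/
def hx (c i : ℕ) : ℕ := Nat.land (Nat.shiftRight c (Nat.mul 4 i)) 15

theorem hx_eq (c i : ℕ) : hx c i = c / 16 ^ i % 16 := by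
  change (c >>> (4 * i)) &&& (2 ^ 4 - 1) = _
  rw [Nat.and_two_pow_sub_one_eq_mod, Nat.shiftRight_eq_div_pow, pow_mul]; rfl

theorem hx_lt (c i : ℕ) : hx c i < 16 := by rw [hx_eq]; omega

/-- multiplication of codes of elements of the field with sixteen elements -/
def mulN (a b : ℕ) : ℕ := hx (nat_lit 0xa5783ce1b4692df05ba48679c23d1fe07ae36bf258c149d0843fd16a2e957bc0386d92c74f1ae5b0c6b1285f394ed7a0e7f6c5d4a3b28190192a7f4cd5e6b380bc5243ad618f9e70428ef93517dbac6063c914be8d27fa509d15ae26fb73c8402147ed8b9afc5630df9b5713eca86420fedcba98765432100000000000000000) (Nat.add (Nat.mul 16 a) b)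

/-- addition of codes -/
def addN (a b : ℕ) : ℕ := hx (Nat.xor a b) 0

theorem mulN_lt (a b : ℕ) : mulN a b < 16 := hx_lt _ _

theorem addN_lt (a b : ℕ) : addN a b < 16 := hx_lt _ _

/-- binary digit -/
def bt (a i : ℕ) : ℕ := a / 2 ^ i % 2

theorem add_spec : ∀ a < 16, ∀ b < 16, ∀ i < 4, bt (addN a b) i = (bt a i + bt b i) % 2 := by
  decide +kernel

theorem mul_spec : ∀ a < 16, ∀ b < 16,
    bt (mulN a b) 0 = (bt a 0 * bt b 0 + bt a 1 * bt b 3 + bt a 2 * bt b 2 + bt a 3 * bt b 1) % 2 ∧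
    bt (mulN a b) 1 = (bt a 0 * bt b 1 + bt a 1 * bt b 0 + bt a 1 * bt b 3 + bt a 2 * bt b 2 +
      bt a 3 * bt b 1 + bt a 2 * bt b 3 + bt a 3 * bt b 2) % 2 ∧
    bt (mulN a b) 2 = (bt a 0 * bt b 2 + bt a 1 * bt b 1 + bt a 2 * bt b 0 + bt a 2 * bt b 3 +
      bt a 3 * bt b 2 + bt a 3 * bt b 3) % 2 ∧
    bt (mulN a b) 3 = (bt a 0 * bt b 3 + bt a 1 * bt b 2 + bt a 2 * bt b 1 + bt a 3 * bt b 0 +
      bt a 3 * bt b 3) % 2 := by
  decide +kernel

theorem inv_spec : ∀ a < 16, ∀ b < 16, a = b ∨ ∃ c < 16, mulN (addN a b) c = 1 := by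
  decide +kernel

/-- A root of `X⁴ + X + 1` in characteristic two. -/
structure Rt (F : Type u) [Field F] where
  g : F
  h2 : (2 : F) = 0
  hg : g ^ 4 = g + 1

theorem exists_rt (F : Type u) [Field F] [Fintype F] (hF : Fintype.card F = 16) :
    Nonempty (Rt F) := by
  have h2 : (2 : F) = 0 := by
    have := FiniteField.cast_card_eq_zero F
    rw [hF] at this
    exact pow_eq_zero_iff (n := 4) (by norm_num) |>.1 (by rw [← this]; norm_num)
  obtain ⟨z, hz⟩ := IsCyclic.exists_ofOrder_eq_natCard (α := Fˣ)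
  rw [Nat.card_units, Nat.card_eq_fintype_card, hF] at hz
  have ho : orderOf (z : F) = 15 := by rw [orderOf_units]; exact hz
  have h15 : (z : F) ^ 15 = 1 := ho ▸ pow_orderOf_eq_one _
  have h5 : (z : F) ^ 5 - 1 ≠ 0 := fun h => by
    have := orderOf_dvd_of_pow_eq_one (sub_eq_zero.1 h); rw [ho] at this; omega
  have h3 : (z : F) ^ 3 - 1 ≠ 0 := fun h => by
    have := orderOf_dvd_of_pow_eq_one (sub_eq_zero.1 h); rw [ho] at this; omega
  have e : ((z : F) ^ 4 - z - 1) * ((z : F) ^ 4 - z ^ 3 - 1) = 0 := by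
    refine mul_left_cancel₀ (mul_ne_zero h5 h3) ?_
    linear_combination ((z : F) - 1) * h15 +
      ((z : F) ^ 10 + z ^ 9 - z ^ 13 + z - z ^ 6 - z ^ 4 + z ^ 8 - z ^ 5) * h2
  rcases mul_eq_zero.1 e with e | e
  · exact ⟨⟨z, h2, by linear_combination e⟩⟩
  · have hw := z.mul_inv
    set w : F := ((z⁻¹ : Fˣ) : F)
    exact ⟨⟨w, h2, by
      linear_combination (-w ^ 4) * e + ((z : F) ^ 3 * w ^ 3 + z ^ 2 * w ^ 2 + z * w + 1 -
        w * ((z : F) ^ 2 * w ^ 2 + z * w + 1)) * hw - w * h2⟩⟩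

variable {F : Type u} [Field F] (r : Rt F)

/-- the field element of a code -/
def ev (a : ℕ) : F := bt a 0 + bt a 1 * r.g + bt a 2 * r.g ^ 2 + bt a 3 * r.g ^ 3

include r in
theorem cast_mod (n : ℕ) : ((n % 2 : ℕ) : F) = n := by
  have h := r.h2
  conv_rhs => rw [← Nat.mod_add_div n 2]
  push_cast
  rw [h]; simp

theorem ev_add {a b : ℕ} (ha : a < 16) (hb : b < 16) : ev r (addN a b) = ev r a + ev r b := by
  have h := add_spec a ha b hb
  unfold ev
  rw [h 0 (by norm_num), h 1 (by norm_num), h 2 (by norm_num), h 3 (by norm_num)]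
  simp only [cast_mod r]
  push_cast
  ring

theorem ev_mul {a b : ℕ} (ha : a < 16) (hb : b < 16) : ev r (mulN a b) = ev r a * ev r b := by
  obtain ⟨h0, h1, h2, h3⟩ := mul_spec a ha b hb
  unfold ev
  rw [h0, h1, h2, h3]
  simp only [cast_mod r]
  push_cast
  linear_combination (-((bt a 1 : F) * bt b 3 + bt a 2 * bt b 2 + bt a 3 * bt b 1) -
    ((bt a 2 : F) * bt b 3 + bt a 3 * bt b 2) * r.g - (bt a 3 : F) * bt b 3 * r.g ^ 2) * r.hg

theorem ev_zero : ev r 0 = 0 := by simp [ev, bt]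

theorem ev_one : ev r 1 = 1 := by simp [ev, bt]

theorem ev_inj {a b : ℕ} (ha : a < 16) (hb : b < 16) (h : ev r a = ev r b) : a = b := by
  refine (inv_spec a ha b hb).resolve_right ?_
  rintro ⟨c, hc, e⟩
  have := congrArg (ev r) e
  rw [ev_mul r (addN_lt _ _) hc, ev_add r ha hb, h, ← two_mul, r.h2, ev_one] at this
  simp at this

/-- coded matrices -/
def mat (c : ℕ) : Matrix (Fin 3) (Fin 3) F := Matrix.of fun i j => ev r (hx c (3 * i + j))

/-- the dot product of codes -/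
def dot (a b c d e f : ℕ) : ℕ := addN (addN (mulN a b) (mulN c d)) (mulN e f)

theorem dot_lt (a b c d e f : ℕ) : dot a b c d e f < 16 := addN_lt _ _

theorem ev_dot {a b c d e f : ℕ} (ha : a < 16) (hb : b < 16) (hc : c < 16) (hd : d < 16)
    (he : e < 16) (hf : f < 16) :
    ev r (dot a b c d e f) = ev r a * ev r b + ev r c * ev r d + ev r e * ev r f := by
  unfold dot
  rw [ev_add r (addN_lt _ _) (mulN_lt _ _), ev_add r (mulN_lt _ _) (mulN_lt _ _), ev_mul r ha hb,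
    ev_mul r hc hd, ev_mul r he hf]

/-- an entry of the product -/
def ent (c d i j : ℕ) : ℕ :=
  dot (hx c i) (hx d j) (hx c (i + 1)) (hx d (j + 3)) (hx c (i + 2)) (hx d (j + 6))

/-- packing of nine digits -/
def pk (a b c d e f g h i : ℕ) : ℕ :=
  a + 16 * (b + 16 * (c + 16 * (d + 16 * (e + 16 * (f + 16 * (g + 16 * (h + 16 * i)))))))

/-- product of coded matrices -/
def mm (c d : ℕ) : ℕ :=
  pk (ent c d 0 0) (ent c d 0 1) (ent c d 0 2) (ent c d 3 0) (ent c d 3 1) (ent c d 3 2)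
    (ent c d 6 0) (ent c d 6 1) (ent c d 6 2)

theorem mat_pk {a b c d e f g h i : ℕ} (ha : a < 16) (hb : b < 16) (hc : c < 16) (hd : d < 16)
    (he : e < 16) (hf : f < 16) (hg : g < 16) (hh : h < 16) (hi : i < 16) :
    mat r (pk a b c d e f g h i) =
      !![ev r a, ev r b, ev r c; ev r d, ev r e, ev r f; ev r g, ev r h, ev r i] := by
  ext k l
  fin_cases k <;> fin_cases l <;> simp only [mat, hx_eq, pk, of_apply] <;>
    refine congrArg (ev r) ?_ <;> norm_num <;> omega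

theorem mat_mm (c d : ℕ) : mat r (mm c d) = mat r c * mat r d := by
  unfold mm ent
  rw [mat_pk r (dot_lt ..) (dot_lt ..) (dot_lt ..) (dot_lt ..) (dot_lt ..) (dot_lt ..) (dot_lt ..)
    (dot_lt ..) (dot_lt ..)]
  simp only [ev_dot r (hx_lt _ _) (hx_lt _ _) (hx_lt _ _) (hx_lt _ _) (hx_lt _ _) (hx_lt _ _)]
  ext k l
  fin_cases k <;> fin_cases l <;> simp [mat, Matrix.mul_apply, Fin.sum_univ_three]

theorem mat_one : mat r 0x100010001 = 1 := by
  ext k l
  fin_cases k <;> fin_cases l <;> simp [mat, hx_eq, ev_zero, ev_one]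

/-- the conjugate of a code -/
def cj (a : ℕ) : ℕ := mulN (mulN a a) (mulN a a)

theorem ev_cj {a : ℕ} (ha : a < 16) : ev r (cj a) = ev r a ^ 4 := by
  unfold cj
  rw [ev_mul r (mulN_lt _ _) (mulN_lt _ _), ev_mul r ha ha]; ring

/-- a cofactor -/
def cof (c i j k l : ℕ) : ℕ := addN (mulN (hx c i) (hx c j)) (mulN (hx c k) (hx c l))

/-- the check for membership in `SU₃(4)` -/
def chk (c : ℕ) : Prop :=
  dot (hx c 0) (cof c 4 8 5 7) (hx c 1) (cof c 3 8 5 6) (hx c 2) (cof c 3 7 4 6) = 1 ∧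
    ∀ i j : Fin 3, dot (hx c i) (cj (hx c j)) (hx c (3 + i)) (cj (hx c (3 + j))) (hx c (6 + i))
      (cj (hx c (6 + j))) = if i = j then 1 else 0

instance (c : ℕ) : Decidable (chk c) := by unfold chk; infer_instance

theorem det_mat {c : ℕ} (h : chk c) : (mat r c).det = 1 := by
  have e := congrArg (ev r) h.1
  unfold cof at e
  rw [ev_dot r (hx_lt _ _) (addN_lt _ _) (hx_lt _ _) (addN_lt _ _) (hx_lt _ _) (addN_lt _ _),
    ev_one] at e
  simp only [ev_add r (mulN_lt _ _) (mulN_lt _ _), ev_mul r (hx_lt _ _) (hx_lt _ _)] at e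
  rw [det_fin_three]
  simp only [mat, of_apply]
  norm_num
  linear_combination e - (ev r (hx c 0) * ev r (hx c 5) * ev r (hx c 7) +
    ev r (hx c 1) * ev r (hx c 3) * ev r (hx c 8) + ev r (hx c 2) * ev r (hx c 4) * ev r (hx c 6)) * r.h2

include r in
theorem mem_SU {M : SpecialLinearGroup (Fin 3) F}
    (h : ∀ i j, ∑ k, M.1 k i * M.1 k j ^ 4 = if i = j then 1 else 0) : M ∈ SU 3 F 4 := by
  intro u v
  have c : ∀ x y : F, (x + y) ^ 4 = x ^ 4 + y ^ 4 := fun x y => by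
    linear_combination (2 * x ^ 3 * y + 3 * x ^ 2 * y ^ 2 + 2 * x * y ^ 3) * r.h2
  change ∑ k, (M.1 *ᵥ u) k * (M.1 *ᵥ v) k ^ 4 = ∑ k, u k * v k ^ 4
  have e : ∑ i, ∑ j, u i * v j ^ 4 * ∑ k, M.1 k i * M.1 k j ^ 4 = ∑ k, u k * v k ^ 4 := by simp [h]
  rw [← e]
  simp only [mulVec, dotProduct, Fin.sum_univ_three, c]
  ring

theorem exists_su {c : ℕ} (h : chk c) : ∃ x : SU 3 F 4, x.1.1 = mat r c := by
  refine ⟨⟨⟨mat r c, det_mat r h⟩, mem_SU r fun i j => ?_⟩, rfl⟩
  have e := congrArg (ev r) (h.2 i j)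
  unfold cj at e
  rw [ev_dot r (hx_lt _ _) (mulN_lt _ _) (hx_lt _ _) (mulN_lt _ _) (hx_lt _ _) (mulN_lt _ _)] at e
  change ev r _ * ev r (cj _) + ev r _ * ev r (cj _) + ev r _ * ev r (cj _) = _ at e
  simp only [ev_cj r (hx_lt _ _)] at e
  rw [apply_ite (ev r), ev_one, ev_zero] at e
  rw [← e]
  simp [mat, Fin.sum_univ_three]

/-- the check for non-scalar matrices -/
def ns (c : ℕ) : Prop :=
  ¬ (hx c 1 = 0 ∧ hx c 2 = 0 ∧ hx c 3 = 0 ∧ hx c 5 = 0 ∧ hx c 0 = hx c 4 ∧ hx c 0 = hx c 8)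

instance (c : ℕ) : Decidable (ns c) := by unfold ns; infer_instance

theorem not_scalar {c : ℕ} (h : ns c) (a : F) : mat r c ≠ a • 1 := fun e => by
  have z : ∀ i j : Fin 3, i ≠ j → hx c (3 * i + j) = 0 := fun i j hij => by
    refine ev_inj r (hx_lt _ _) (by norm_num) ?_
    have := congrFun (congrFun e i) j
    rw [ev_zero]
    simpa [mat, hij] using this
  have d : ∀ i : Fin 3, ev r (hx c (3 * i + i)) = a := fun i => by
    simpa [mat] using congrFun (congrFun e i) i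
  exact h ⟨z 0 1 (by decide), z 0 2 (by decide), z 1 0 (by decide), z 1 2 (by decide),
    ev_inj r (hx_lt _ _) (hx_lt _ _) ((d 0).trans (d 1).symm),
    ev_inj r (hx_lt _ _) (hx_lt _ _) ((d 0).trans (d 2).symm)⟩

/-- the codes of the letters `a b s t y w c d u` -/
def cs : List ℕ := [0xa00080008, 0x80008000a, 0x10001100, 0x100035042, 0x1000ed0b9, 0x1000080f0,
  0x8648958f1, 0xdc2f2d721, 0x7cda64b50]

/-- the code of a letter -/
def lt (i : ℕ) : ℕ := cs.getD i 0x100010001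

theorem chk_lt (i : ℕ) : chk (lt i) := by
  have h : ∀ i < 10, chk (lt i) := by decide +kernel
  rcases lt_or_ge i 10 with hi | hi
  · exact h i hi
  · rw [show lt i = lt 9 from List.getD_eq_default _ _ (le_trans (by decide) hi)]
    exact h 9 (by norm_num)

/-- the code of a word -/
noncomputable def wc (l : List ℕ) : ℕ :=
  l.rec 0x100010001 fun i _ c => H49.frc c (mm (lt i))

/-- a repeated word -/
def rp (n : ℕ) (l : List ℕ) : List ℕ := (List.replicate n l).flatten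

/-- Letters in a group which satisfy the relations found from the codes. -/
structure Lets {G : Type*} [Group G] (f : ℕ → G) : Prop where
  eq : ∀ l l', wc l = wc l' → (l.map f).prod = (l'.map f).prod
  ne : ∀ l, ns (wc l) → (l.map f).prod ≠ 1

theorem exists_lets (F : Type u) [Field F] [Fintype F] (hF : Fintype.card F = 16) :
    ∃ f : ℕ → PSU 3 F 4, Lets f := by
  obtain ⟨r⟩ := exists_rt F hF
  choose f hf using fun i => exists_su r (chk_lt i)
  have e : ∀ l : List ℕ, ((l.map f).prod).1.1 = mat r (wc l) := by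
    intro l
    induction l with
    | nil => exact (mat_one r).symm
    | cons i l ih =>
      rw [List.map_cons, List.prod_cons]
      change (f i).1.1 * ((l.map f).prod).1.1 = mat r (H49.frc (wc l) (mm (lt i)))
      rw [H49.frc_eq, mat_mm, ih, hf]
  have m : ∀ l : List ℕ, (l.map fun i => (f i : PSU 3 F 4)).prod = ((l.map f).prod : SU 3 F 4) :=
    fun l => by
      have := map_list_prod (QuotientGroup.mk' (Subgroup.center (SU 3 F 4))) (l.map f)
      rw [List.map_map] at this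
      exact this.symm
  refine ⟨fun i => (f i : PSU 3 F 4), fun l l' h => ?_, fun l h h1 => ?_⟩
  · rw [m, m, show (l.map f).prod = (l'.map f).prod from
      Subtype.ext (Subtype.ext (by rw [e, e, h]))]
  · rw [m, QuotientGroup.eq_one_iff, H59.mem_center_SU_iff (q := 4) hF (by norm_num)] at h1
    obtain ⟨a, ha⟩ := h1
    exact not_scalar r h a ((e l).symm.trans ha)

section words

variable {G : Type*} [Group G] {f : ℕ → G}

theorem prod_rp (n : ℕ) (l : List ℕ) : ((rp n l).map f).prod = (l.map f).prod ^ n := by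
  induction n with
  | zero => simp [rp]
  | succ n ih =>
    rw [pow_succ', ← ih]
    simp [rp, List.replicate_succ]

theorem Lets.ord (h : Lets f) (n : ℕ) (l : List ℕ)
    (e : 0 < n ∧ wc (rp n l) = wc [] ∧ ∀ i < n, 0 < i → ns (wc (rp i l))) :
    orderOf (l.map f).prod = n := by
  rw [orderOf_eq_iff e.1]
  refine ⟨by simpa [prod_rp] using h.eq _ _ e.2.1, fun i hi h0 => ?_⟩
  simpa [prod_rp] using h.ne _ (e.2.2 i hi h0)

theorem mul_dvd_card [Finite G] {H : Subgroup G} {a b : G} (ha : a ∈ H) (hb : b ∈ H)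
    (c : Commute a b) (h : ∀ i < orderOf a, ∀ j < orderOf b, 0 < j → a ^ i * b ^ j ≠ 1) :
    orderOf a * orderOf b ∣ Nat.card H := by
  classical
  have ha' : Subgroup.zpowers a ≤ H := by simpa using ha
  have hb' : Subgroup.zpowers b ≤ H := by simpa using hb
  rw [← Nat.card_zpowers, ← Nat.card_zpowers, ← Nat.card_prod]
  refine Subgroup.card_dvd_of_injective ((Subgroup.inclusion ha').noncommCoprod
    (Subgroup.inclusion hb') ?_) ((injective_iff_map_eq_one _).2 ?_)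
  · rintro ⟨_, i, rfl⟩ ⟨_, j, rfl⟩
    exact Subtype.ext (c.zpow_zpow i j)
  · rintro ⟨⟨x, hx⟩, ⟨y, hy⟩⟩ e
    have e' : x * y = 1 := congrArg Subtype.val e
    obtain ⟨i, hi, rfl⟩ := Finset.mem_image.1 (mem_zpowers_iff_mem_range_orderOf.1 hx)
    obtain ⟨j, hj, rfl⟩ := Finset.mem_image.1 (mem_zpowers_iff_mem_range_orderOf.1 hy)
    obtain rfl : j = 0 := by
      by_contra h0
      exact h i (Finset.mem_range.1 hi) j (Finset.mem_range.1 hj) (Nat.pos_of_ne_zero h0) e'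
    refine Prod.ext (Subtype.ext ?_) (Subtype.ext (pow_zero b))
    simpa using e'

theorem Lets.dvd [Finite G] (h : Lets f) {H : Subgroup G} (m n : ℕ) (l k : List ℕ)
    (hl : (l.map f).prod ∈ H) (hk : (k.map f).prod ∈ H)
    (e1 : 0 < m ∧ wc (rp m l) = wc [] ∧ ∀ i < m, 0 < i → ns (wc (rp i l)))
    (e2 : 0 < n ∧ wc (rp n k) = wc [] ∧ ∀ i < n, 0 < i → ns (wc (rp i k)))
    (e3 : wc (l ++ k) = wc (k ++ l) ∧ ∀ i < m, ∀ j < n, 0 < j → ns (wc (rp i l ++ rp j k))) :
    m * n ∣ Nat.card H := by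
  have := mul_dvd_card hl hk (by simpa [Commute, SemiconjBy] using h.eq _ _ e3.1)
  rw [h.ord m l e1, h.ord n k e2] at this
  exact this fun i hi j hj h0 => by simpa [prod_rp] using h.ne _ (e3.2 i hi j hj h0)

theorem word_mem (l : List ℕ) (e : ∀ i ∈ l, i = 8 ∨ i = 2) :
    (l.map f).prod ∈ Subgroup.closure {f 8, f 2} := by
  refine Subgroup.list_prod_mem _ fun x hx => Subgroup.subset_closure ?_
  obtain ⟨i, hi, rfl⟩ := List.mem_map.1 hx
  rcases e i hi with rfl | rfl <;> simp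

theorem Lets.gen [Finite G] [IsSimpleGroup G] (h : Lets f) (hc : Nat.card G = 62400) :
    Subgroup.closure {f 8, f 2} = ⊤ := by
  by_contra hne
  set H := Subgroup.closure {f 8, f 2}
  have h25 : 5 * 5 ∣ Nat.card H := h.dvd 5 5 [8, 2, 8, 2, 8, 2, 2, 8, 2, 2, 8, 2, 8, 2, 8, 2, 8, 2, 2, 8, 2, 2, 8, 2] 
    [2, 8, 2, 8, 2, 8, 2, 2, 8, 2, 2, 8, 2, 8, 2, 8, 2, 8, 2, 2, 8, 2, 2, 8]
    (word_mem _ (by decide)) (word_mem _ (by decide)) (by decide +kernel) (by decide +kernel)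
    (by decide +kernel)
  have h8 : 4 * 2 ∣ Nat.card H := h.dvd 4 2 [8, 2, 8, 2, 8, 2, 2, 8, 2, 8, 2, 8, 2] 
    [2, 8, 2, 8, 2, 8, 2, 2, 8, 2, 8, 2, 2, 8, 2, 2, 8, 2, 2]
    (word_mem _ (by decide)) (word_mem _ (by decide)) (by decide +kernel) (by decide +kernel)
    (by decide +kernel)
  have h39 : ∀ n l, (∀ i ∈ l, i = 8 ∨ i = 2) →
      (0 < n ∧ wc (rp n l) = wc [] ∧ ∀ i < n, 0 < i → ns (wc (rp i l))) → n ∣ Nat.card H :=
    fun n l e1 e2 => h.ord n l e2 ▸ H.orderOf_dvd_natCard (word_mem l e1)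
  have h13 := h39 13 [8, 2, 8, 2, 8, 2, 2] (by decide) (by decide +kernel)
  have h3 := h39 3 [2] (by decide) (by decide +kernel)
  have hab : ¬ IsMulCommutative G := fun hcomm =>
    h.ne [8, 2, 8, 2, 2] (by decide +kernel) (by
      have e1 := h.eq [8, 8] [] (by decide +kernel)
      have e2 := h.eq [2, 2, 2] [] (by decide +kernel)
      simp only [List.map_cons, List.map_nil, List.prod_cons, List.prod_nil, mul_one] at e1 e2 ⊢
      rw [← mul_assoc (f 2), hcomm.is_comm.comm (f 2) (f 8), mul_assoc, ← mul_assoc, e1, e2,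
        mul_one])
  have hd := H87.two_mul_card_dvd_factorial hab H hne
  have hi := H.index_mul_card
  have h7800 : 7800 ∣ Nat.card H :=
    Nat.Coprime.mul_dvd_of_dvd_of_dvd (m := 5 * 5 * (4 * 2)) (n := 13 * 3) (by norm_num)
      (Nat.Coprime.mul_dvd_of_dvd_of_dvd (by norm_num) h25 h8)
      (Nat.Coprime.mul_dvd_of_dvd_of_dvd (by norm_num) h13 h3)
  obtain ⟨k, hk⟩ := h7800
  rw [hc] at hd hi
  have hk8 : H.index * k = 8 := by rw [hk] at hi; nlinarith
  have : H.index ≤ 8 := Nat.le_of_dvd (by norm_num) (Dvd.intro _ hk8)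
  have := hd.trans (Nat.factorial_dvd_factorial this)
  norm_num [Nat.factorial] at this

theorem Lets.cfg [Finite G] [IsSimpleGroup G] (h : Lets f) (hc : Nat.card G = 62400) :
    H40.E7S.CfgU G := by
  have o : ∀ n i, (0 < n ∧ wc (rp n [i]) = wc [] ∧ ∀ j < n, 0 < j → ns (wc (rp j [i]))) →
      orderOf (f i) = n := fun n i e => by simpa using h.ord n [i] e
  have c : ∀ i j k l, wc [i, j] = wc [k, l] → f i * f j = f k * f l := fun i j k l e => by
    simpa using h.eq _ _ e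
  have o5 : ∀ j, (∀ i < 5, 0 < 5 ∧ wc (rp 5 (rp i [0] ++ [j])) = wc [] ∧
      ∀ k < 5, 0 < k → ns (wc (rp k (rp i [0] ++ [j])))) → ∀ i < 5, orderOf (f 0 ^ i * f j) = 5 :=
    fun j e i hi => by simpa [prod_rp] using h.ord 5 _ (e i hi)
  refine ⟨f 8, f 2, f 0, f 1, f 2, f 0, f 3, f 4, f 5, ?_, h.gen hc,
    ⟨o 5 0 (by decide +kernel), o5 1 (by decide +kernel), o 3 2 (by decide +kernel),
      c _ _ _ _ (by decide +kernel), mul_inv_eq_of_eq_mul (c _ _ _ _ (by decide +kernel)), ?_⟩,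
    ⟨o 5 0 (by decide +kernel), o5 4 (by decide +kernel), o 3 3 (by decide +kernel),
      c _ _ _ _ (by decide +kernel), c _ _ _ _ (by decide +kernel), ?_,
      c _ _ _ _ (by decide +kernel), ?_⟩, IsConj.refl _,
    isConj_iff.2 ⟨f 6, mul_inv_eq_of_eq_mul (c _ _ _ _ (by decide +kernel))⟩,
    isConj_iff.2 ⟨f 7, mul_inv_eq_of_eq_mul ?_⟩⟩
  · simpa [sq] using h.eq [8, 8] [] (by decide +kernel)
  · refine mul_inv_eq_of_eq_mul (eq_inv_mul_of_mul_eq ?_)
    simpa [mul_assoc] using h.eq [0, 1, 2, 1] [2] (by decide +kernel)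
  · simpa [sq, mul_assoc] using h.eq [3, 4, 3, 4] [] (by decide +kernel)
  · refine mul_inv_eq_of_eq_mul (eq_inv_mul_of_mul_eq ?_)
    simpa [mul_assoc] using h.eq [3, 5, 3] [5] (by decide +kernel)
  · simpa [mul_assoc] using h.eq [7, 8, 2] [0, 3, 7] (by decide +kernel)

end words

theorem jobU34 : H40.E7S.JobU34.{u} := by
  intro F _ _ hF
  obtain ⟨f, hf⟩ := exists_lets F hF
  haveI := Cfsg.Agent.S0283.result (q := 4) hF 3 le_rfl (by norm_num)
  have hc := Cfsg.Agent.S0280.result (q := 4) hF 3 (by norm_num)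
  norm_num [Finset.prod_range_succ, Nat.even_add_one] at hc
  exact hf.cfg (by omega)

end H55.E7U
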