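/- Tower E8G, job Lin: Scott's lemma, the dihedral group of order 26, the Frobenius group `13:3`. -/
import Cfsg.Agent.H40.E8GSpec

set_option autoImplicit false

namespace H55.E8GLin

open Module H40.E8F H40.E8G

variable {k V : Type} [Field k] [AddCommGroup V] [Module k V] [FiniteDimensional k V]

theorem step (f : End k V) {A B C : Submodule k V} (h : ∀ v ∈ A, f v ∈ B)
    (h0 : ∀ v ∈ A, f v = 0 → v ∈ C) : finrank k A ≤ finrank k B + finrank k C := by
  have h1 := (f.domRestrict A).finrank_range_add_finrank_ker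
  have h2 : finrank k (LinearMap.range (f.domRestrict A)) ≤ finrank k B :=
    Submodule.finrank_mono (by rintro _ ⟨v, rfl⟩; exact h v v.2)
  have h3 : finrank k (LinearMap.ker (f.domRestrict A)) ≤ finrank k C := by
    rw [← Submodule.finrank_map_subtype_eq]
    exact Submodule.finrank_mono (by rintro _ ⟨v, hv, rfl⟩; exact h0 v v.2 hv)
  omega

omit [FiniteDimensional k V] in
theorem fx_eq (x : End k V) : fx x = LinearMap.ker (x - 1) := by
  ext v
  rw [mem_fx, LinearMap.mem_ker, LinearMap.sub_apply, End.one_apply, sub_eq_zero]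

theorem rk (x : End k V) : finrank k (LinearMap.range (x - 1)) + finrank k (fx x) = finrank k V := by
  rw [fx_eq]
  exact LinearMap.finrank_range_add_finrank_ker _

theorem dsum {A B C : Submodule k V} (hA : A ≤ C) (hB : B ≤ C) (h : ∀ v ∈ A, v ∈ B → v = 0) :
    finrank k A + finrank k B ≤ finrank k C := by
  have h1 := Submodule.finrank_sup_add_finrank_inf_eq A B
  have h2 := Submodule.finrank_mono (sup_le hA hB)
  have h3 : A ⊓ B = ⊥ := (Submodule.eq_bot_iff _).2 fun v hv => h v hv.1 hv.2
  rw [h3, finrank_bot] at h1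
  omega

omit [FiniteDimensional k V] in
theorem pow_fix {u : End k V} {v : V} (h : u v = v) (n : ℕ) : (u ^ n) v = v := by
  induction n with
  | zero => rfl
  | succ n ih => rw [pow_succ, End.mul_apply, h, ih]

omit [FiniteDimensional k V] in
theorem disj [CharP k 3] {u : End k V} (hu : u ^ 13 = 1) {v : V}
    (hv : v ∈ LinearMap.range (u - 1)) (h : u v = v) : v = 0 := by
  obtain ⟨w, rfl⟩ := hv
  have e := congrArg (fun f : End k V => f w) (geom_sum_mul u 13)
  simp only [hu, sub_self, End.mul_apply, LinearMap.sum_apply, pow_fix h, Finset.sum_const,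
    Finset.card_range, LinearMap.zero_apply] at e
  have h13 : ((13 : ℕ) : k) ≠ 0 := by
    rw [Ne, CharP.cast_eq_zero_iff k 3]
    decide
  rw [← Nat.cast_smul_eq_nsmul k] at e
  exact (smul_eq_zero.1 e).resolve_left h13

omit [FiniteDimensional k V] in
theorem stab {u t : End k V} {n : ℕ} (h : t * u = u ^ n * t) {v : V}
    (hv : v ∈ LinearMap.range (u - 1)) : t v ∈ LinearMap.range (u - 1) := by
  obtain ⟨w, rfl⟩ := hv
  refine ⟨(∑ i ∈ Finset.range n, u ^ i) (t w), ?_⟩
  rw [← End.mul_apply, mul_geom_sum, ← End.mul_apply, ← End.mul_apply, mul_sub, h, sub_mul, mul_one,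
    one_mul]

theorem jobLin : JobLin := by
  intro k V _ _ _ _ _
  refine ⟨fun x y _ _ h1 e => ?_, fun u z hu hz h => ?_, fun u t hu ht h hf => ?_⟩
  · have a := Submodule.finrank_sup_add_finrank_inf_eq (LinearMap.range (x - 1))
      (LinearMap.range (y - 1))
    rw [e, finrank_top] at a
    have b := step (A := fx (x * y)) (B := LinearMap.range (x - 1) ⊓ LinearMap.range (y - 1))
      (C := ⊥) (y - 1)
      (fun v hv => ⟨⟨-y v, by simp [show x (y v) = v from mem_fx.1 hv, neg_add_eq_sub]⟩, v, rfl⟩)
      fun v hv k => by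
        have k' : y v = v := by simpa [sub_eq_zero] using k
        exact h1 v (by simpa [k'] using mem_fx.1 hv) k'
    have := rk x
    have := rk y
    rw [finrank_bot] at b
    omega
  · have e1 : z * u = u ^ 12 * z := by
      calc z * u = z * u * (z * u) * u ^ 12 * z := by
            rw [mul_assoc (z * u), mul_assoc z u (u ^ 12), ← pow_succ', hu, mul_one,
              mul_assoc (z * u), hz, mul_one]
        _ = u ^ 12 * z := by rw [h, one_mul]
    have e2 : z * u ^ 12 = u * z := by
      calc z * u ^ 12 = z * (u ^ 12 * z) * z := by rw [mul_assoc z, mul_assoc _ z z, hz, mul_one]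
        _ = u * z := by rw [← e1, ← mul_assoc, hz, one_mul]
    have zz : ∀ v, z (z v) = v := fun v => by rw [← End.mul_apply, hz, End.one_apply]
    have su : ∀ n, ∀ v ∈ LinearMap.range (u - 1), (u ^ n) v ∈ LinearMap.range (u - 1) :=
      fun n v hv => stab (n := 1) (by rw [pow_one, ← pow_succ, pow_succ']) hv
    have a := step (A := LinearMap.range (u - 1))
      (B := LinearMap.range (u - 1) ⊓ LinearMap.ker (z + 1))
      (C := LinearMap.range (u - 1) ⊓ fx z) (z - 1)
      (fun v hv => ⟨sub_mem (stab e1 hv) hv, by simp [zz]⟩)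
      fun v hv k => ⟨hv, mem_fx.2 (by simpa [sub_eq_zero] using k)⟩
    have b := step (A := LinearMap.range (u - 1) ⊓ LinearMap.ker (z + 1))
      (B := LinearMap.range (u - 1) ⊓ fx z) (C := ⊥) (u ^ 1 - u ^ 12)
      (fun v hv => ⟨sub_mem (su 1 v hv.1) (su 12 v hv.1), by
        have k : z v = -v := by simpa [add_eq_zero_iff_eq_neg] using hv.2
        refine mem_fx.2 ?_
        rw [← End.mul_apply, mul_sub, pow_one, e1, e2]
        simp [k, neg_add_eq_sub]⟩)
      fun v hv k => by
        have k1 : u v = (u ^ 12) v := by simpa [sub_eq_zero] using k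
        have k2 : (u ^ 2) v = v := by
          rw [sq, End.mul_apply, k1, ← End.mul_apply, ← pow_succ', hu, End.one_apply]
        have k3 := pow_fix k2 7
        rw [← pow_mul, show 2 * 7 = 13 + 1 from rfl, pow_succ, hu, one_mul] at k3
        exact disj hu hv.1 k3
    have c := dsum (A := fx u ⊓ fx z) (B := LinearMap.range (u - 1) ⊓ fx z) (C := fx z)
      inf_le_right inf_le_right fun v hv hw => disj hu hw.1 (mem_fx.1 hv.1)
    have := rk u
    rw [finrank_bot] at b
    omega
  · have h3 : (3 : End k V) = 0 := by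
      have : ((3 : ℕ) : k) = 0 := CharP.cast_eq_zero k 3
      have e : ((3 : ℕ) : End k V) = algebraMap k (End k V) (3 : ℕ) := (map_natCast _ 3).symm
      rw [this, map_zero] at e
      exact_mod_cast e
    have e : (t - 1) * ((t - 1) * (t - 1)) = 0 := by
      have : (t - 1) * ((t - 1) * (t - 1)) = t ^ 3 - 1 - 3 * (t * t) + 3 * t := by noncomm_ring
      rw [this, ht, h3]
      simp
    have st : ∀ v ∈ LinearMap.range (u - 1), (t - 1) v ∈ LinearMap.range (u - 1) :=
      fun v hv => sub_mem (stab h hv) hv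
    have k0 : ∀ v, (t - 1) v = 0 → v ∈ fx t := fun v k => by rw [fx_eq]; exact k
    have a := step (A := LinearMap.range (u - 1))
      (B := LinearMap.range (u - 1) ⊓ LinearMap.ker ((t - 1) * (t - 1)))
      (C := LinearMap.range (u - 1) ⊓ fx t) (t - 1)
      (fun v hv => ⟨st v hv, by
        have := congrArg (fun f : End k V => f v) e
        simpa [mul_assoc] using this⟩)
      fun v hv k => ⟨hv, k0 v k⟩
    have b := step (A := LinearMap.range (u - 1) ⊓ LinearMap.ker ((t - 1) * (t - 1)))
      (B := LinearMap.range (u - 1) ⊓ fx t) (C := LinearMap.range (u - 1) ⊓ fx t) (t - 1)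
      (fun v hv => ⟨st v hv.1, k0 _ (LinearMap.mem_ker.1 hv.2)⟩) fun v hv k => ⟨hv.1, k0 v k⟩
    have c := dsum (A := fx u) (B := LinearMap.range (u - 1) ⊓ fx t) (C := fx t)
      (fun v hv => mem_fx.2 (hf v (mem_fx.1 hv))) inf_le_right
      fun v hv hw => disj hu hw.1 (mem_fx.1 hv)
    have := rk u
    omega

end H55.E8GLin
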