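import Cfsg.Agent.H74.O11Res

/-! O11 tower, slot E2: the case where `Z a b` has even order and a kernel `K` exists. -/

set_option autoImplicit false
set_option linter.unusedSectionVars false

namespace H55.O11

open Subgroup MulAction H74.O11

universe u

variable {G Ω : Type u} [Group G] [MulAction G Ω] {Γ : Geo G Ω}

theorem sub_normal {a b : Ω} {K : Subgroup G} (hK : Ker Γ a b K) :
    ((Γ.sub a).subgroupOf K).Normal := ⟨fun x hx g => by
  have := Γ.conj (g : G) a x hx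
  rwa [A_fix (hK.le g.2)] at this⟩

/-- conjugation by an element fixing `a`, on `K` -/
def cjK {a b : Ω} {K : Subgroup G} (hK : Ker Γ a b K) (g : G) (hg : g • a = a) : K →* K where
  toFun k := ⟨g * k * g⁻¹, hK.norm g hg k k.2⟩
  map_one' := Subtype.ext (by simp)
  map_mul' x y := Subtype.ext (by simp [mul_assoc])

/-- an involution of `Z a b` inverts `K` modulo `sub a` -/
theorem inverts [Finite G] {a b : Ω} {K : Subgroup G} (hK : Ker Γ a b K) {z : G}
    (hz : z ∈ invs (Γ.Z a b)) {k : G} (hk : k ∈ K) : k * (z * k * z⁻¹) ∈ Γ.sub a := by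
  haveI := sub_normal hK
  have hH := Γ.Z_le_H a b hz.1
  have hw : Γ.w z a ^ 5 = 1 := by rw [Z_w hz.1 (Γ.on_left a b), one_pow]
  let f : K ⧸ (Γ.sub a).subgroupOf K →* K ⧸ (Γ.sub a).subgroupOf K :=
    QuotientGroup.map _ _ (cjK hK z hH.1) fun x hx => by
      have := Γ.conj z a x hx
      rwa [hH.1] at this
  have hf : ∀ x : K, f (x : K ⧸ (Γ.sub a).subgroupOf K) = (cjK hK z hH.1 x : K) := fun x => rfl
  have h1 : MonoidHom.FixedPointFree f := by
    intro q hq
    obtain ⟨x, rfl⟩ := QuotientGroup.mk_surjective q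
    rw [hf, eq_comm, QuotientGroup.eq] at hq
    exact (QuotientGroup.eq_one_iff _).2 (hK.fpf z hH hz.2.2 hw x x.2 hq)
  have h2 : Function.Involutive f := by
    intro q
    obtain ⟨x, rfl⟩ := QuotientGroup.mk_surjective q
    rw [hf, hf]
    congr 1
    apply Subtype.ext
    show z * (z * x * z⁻¹) * z⁻¹ = x
    calc _ = (z * z) * x * (z * z)⁻¹ := by group
      _ = x := by rw [hz.2.1]; simp
  have h3 := congrFun (h1.coe_eq_inv_of_involutive h2) ((⟨k, hk⟩ : K) : K ⧸ (Γ.sub a).subgroupOf K)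
  rw [hf, ← QuotientGroup.mk_inv, eq_comm, QuotientGroup.eq, inv_inv] at h3
  exact h3

theorem inv_unique [Finite G] [Finite Ω] (h : One Γ) {a b : Ω} {K : Subgroup G} (hK : Ker Γ a b K)
    {z z' : G} (hz : z ∈ invs (Γ.Z a b)) (hz' : z' ∈ invs (Γ.Z a b)) : z = z' := by
  by_contra hne
  have hn : z * z' ≠ 1 := fun e => hne (by
    calc z = z * (z' * z') := by rw [hz'.2.1, mul_one]
      _ = z' := by rw [← mul_assoc, e, one_mul])
  have hZ := mul_mem hz.1 hz'.1
  have hle : K ≤ Γ.sub a := fun k hk => by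
    refine hK.fpf _ (Γ.Z_le_H a b hZ) hn (by rw [Z_w hZ (Γ.on_left a b), one_pow]) k hk ?_
    have h1 := inverts hK hz' hk
    have h2 := inverts hK hz hk
    have h3 := Γ.conj z a _ h1
    rw [Z_fix hz.1 (Γ.on_left a b)] at h3
    have h4 := Γ.conj k⁻¹ a _ (inv_mem h2)
    rw [A_fix (inv_mem (hK.le hk))] at h4
    convert mul_mem h4 h3 using 1
    group
  have := card_le_of_le hle
  rw [hK.card, Γ.card] at this
  have := h.big12
  omega

theorem ncard_invs [Finite G] [Finite Ω] (h : One Γ) {a b : Ω} {K : Subgroup G} (hK : Ker Γ a b K)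
    (he : Even (Nat.card (Γ.Z a b))) : ∃ z, invs (Γ.Z a b) = {z} := by
  obtain ⟨z, hz⟩ := exists_prime_orderOf_dvd_card' (G := Γ.Z a b) 2 (even_iff_two_dvd.1 he)
  have hz' : (z : G) ∈ invs (Γ.Z a b) := by
    refine ⟨z.2, ?_, fun e => ?_⟩
    · have := pow_orderOf_eq_one z
      rw [hz, pow_two] at this
      exact congrArg Subtype.val this
    · rw [show z = 1 from Subtype.ext e, orderOf_one] at hz
      omega
  exact ⟨z, Set.eq_singleton_iff_unique_mem.2 ⟨hz', fun x hx => inv_unique h hK hx hz'⟩⟩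

section S672

variable [Finite G] [Finite Ω] {a b : Ω} {K : Subgroup G} {r : G}

theorem dec_K (hK : Ker Γ a b K) (hv : Nat.card Ω = 672) (hr : r ∈ K) (ho : orderOf r = 61)
    {k : G} (hk : k ∈ K) : ∃ x ∈ Γ.sub a, ∃ s ∈ zpowers r, k = x * s := by
  have hc : Nat.card K = 671 := by rw [hK.card, hv]
  have hle : zpowers r ≤ normalizer (Γ.sub a : Set G) := by
    rw [← stab_eq]
    exact zpowers_le.2 (A_fix (hK.le hr))
  have hd : Disjoint (Γ.sub a) (zpowers r) :=
    disjoint_of_coprime_natCard (by rw [Γ.card, Nat.card_zpowers, ho]; norm_num)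
  have hle2 : Γ.sub a ⊔ zpowers r ≤ K := sup_le hK.subP (zpowers_le.2 hr)
  have h11 : 11 ∣ Nat.card ↥(Γ.sub a ⊔ zpowers r) := Γ.card a ▸ card_dvd_of_le le_sup_left
  have h61 : 61 ∣ Nat.card ↥(Γ.sub a ⊔ zpowers r) := by
    have := card_dvd_of_le (le_sup_right : zpowers r ≤ Γ.sub a ⊔ zpowers r)
    rwa [Nat.card_zpowers, ho] at this
  have he : Γ.sub a ⊔ zpowers r = K := eq_of_le_of_card_ge hle2 (by
    rw [hc]
    exact Nat.le_of_dvd Nat.card_pos (Nat.Coprime.mul_dvd_of_dvd_of_dvd (by norm_num) h11 h61))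
  rw [← he, ← SetLike.mem_coe, coe_mul_of_right_le_normalizer_left _ _ hle] at hk
  obtain ⟨x, hx, s, hs, e⟩ := hk
  exact ⟨x, hx, s, hs, e.symm⟩

theorem comm_P (hK : Ker Γ a b K) {k x : G} (hk : k ∈ K) (hx : x ∈ Γ.sub a) : Commute x k :=
  Γ.mem_A.1 (hK.le hk) x hx

theorem nm_r (hK : Ker Γ a b K) (hv : Nat.card Ω = 672) (hr : r ∈ K) (ho : orderOf r = 61)
    {g : G} (hg : g • a = a) : g ∈ normalizer (zpowers r : Set G) := by
  have key : g * r * g⁻¹ ∈ zpowers r := by
    obtain ⟨x, hx, s, hs, e⟩ := dec_K hK hv hr ho (hK.norm g hg r hr)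
    have h1 : (g * r * g⁻¹) ^ 61 = 1 := by rw [conj_pow, ← ho, pow_orderOf_eq_one]; simp
    have h2 : s ^ 61 = 1 := by
      have := pow_card_eq_one' (x := (⟨s, hs⟩ : zpowers r))
      rw [Nat.card_zpowers, ho] at this
      exact congrArg Subtype.val this
    rw [e, (comm_P hK (zpowers_le.2 hr hs) hx).mul_pow, h2, mul_one] at h1
    have h3 : x = 1 := by
      by_contra h
      have := orderOf_dvd_of_pow_eq_one h1
      rw [Γ.orderOf_eq hx h] at this
      omega
    rw [e, h3, one_mul]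
    exact hs
  refine mem_normalizer_fintype fun y hy => ?_
  obtain ⟨n, rfl⟩ := mem_zpowers_iff.1 hy
  rw [← conj_zpow]
  exact zpow_mem key n

theorem cent_r (hK : Ker Γ a b K) (hr : r ∈ K) (ho : orderOf r = 61) {g : G} (hg : g ∈ Γ.H a b)
    (hw : Γ.w g a ^ 5 = 1) (hc : g * r = r * g) : g = 1 := by
  by_contra h
  have h1 := hK.fpf g hg h hw r hr (by rw [hc]; simp)
  have h2 := Γ.pow_eleven h1
  have := orderOf_dvd_of_pow_eq_one h2
  rw [ho] at this
  omega

theorem cent_r' (hK : Ker Γ a b K) (hr : r ∈ K) (ho : orderOf r = 61) {g : G} (hg : g ∈ Γ.H a b)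
    (h1 : g ≠ 1) (hc : g * r = r * g) : g * g = 1 ∧ Γ.w g a = -1 := by
  have h5 : Γ.w g a ^ 5 ≠ 1 := fun e => h1 (cent_r hK hr ho hg e hc)
  have h10 := Γ.w_pow_ten hg.1
  have hgg : g * g = 1 := cent_r hK hr ho (mul_mem hg hg)
    (by rw [Γ.w_mul hg.1 hg.1, mul_pow, ← pow_add]; exact h10)
    (by rw [mul_assoc, hc, ← mul_assoc, hc, mul_assoc])
  refine ⟨hgg, ?_⟩
  have h2 : Γ.w g a * Γ.w g a = 1 := by rw [← Γ.w_mul hg.1 hg.1, hgg, Γ.w_one]
  revert h5 h2
  generalize Γ.w g a = k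
  revert k
  decide

theorem fix_o (hK : Ker Γ a b K) (hv : Nat.card Ω = 672) (hr : r ∈ K) (ho : orderOf r = 61)
    {o : G} (hg : o ∈ Γ.H a b) (hw : Γ.w o a = -1) (hc : o * r = r * o) :
    {c : Ω | o • c = c}.ncard = 62 := by
  have hcs : ∀ s ∈ zpowers r, o * s = s * o := fun s hs => by
    obtain ⟨n, rfl⟩ := mem_zpowers_iff.1 hs
    exact (Commute.zpow_right hc n).eq
  have h1 := ncard_mul_card (zpowers r) ({c : Ω | o • c = c} \ {a}) (a := b)
    (fun s hs => ⟨by show o • s • b = s • b; rw [← mul_smul, hcs s hs, mul_smul, hg.2],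
      smul_ne (A_fix (hK.le (zpowers_le.2 hr hs))) hK.ne.symm⟩)
    (fun c hc => by
      obtain ⟨k, hk, rfl⟩ := hK.trans b c hK.ne.symm hc.2
      obtain ⟨x, hx, s, hs, rfl⟩ := dec_K hK hv hr ho hk
      have hf : o • (x * s) • b = (x * s) • b := hc.1
      have hk' := hK.norm o hg.1 _ hk
      have h2 : ((x * s)⁻¹ * (o * (x * s) * o⁻¹)) = 1 :=
        hK.semi _ (mul_mem (inv_mem hk) hk') b hK.ne.symm (by
          rw [mul_smul, mul_smul, mul_smul, inv_smul_eq_iff.2 hg.2.symm, hf, inv_smul_smul])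
      have h3 : o * x * o⁻¹ = x := by
        have e := hcs s hs
        calc o * x * o⁻¹ = (x * s) * ((x * s)⁻¹ * (o * (x * s) * o⁻¹)) * (o * s⁻¹ * o⁻¹) := by group
          _ = x * (s * o) * s⁻¹ * o⁻¹ := by rw [h2]; group
          _ = x := by rw [← e]; group
      have h4 : x = 1 := by
        by_contra hx1
        have := (Γ.w_eq hx hx1 (k := 1) (by rw [h3, Geo.val_one, pow_one])).2
        rw [hw] at this
        exact absurd this (by decide)
      exact ⟨s, hs, by rw [h4, one_mul]⟩)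
  have h2 : zpowers r ⊓ stabilizer G b = ⊥ := (eq_bot_iff_forall _).2 fun s hs =>
    hK.semi s (zpowers_le.2 hr hs.1) b hK.ne.symm hs.2
  rw [h2, card_bot, mul_one, Nat.card_zpowers, ho] at h1
  have h3 := Set.ncard_sdiff_singleton_add_one (s := {c : Ω | o • c = c}) (a := a) hg.1
  omega

theorem case672 (hCnt : JobCnt.{u}) (h : One Γ) (hK : Ker Γ a b K) (hv : Nat.card Ω = 672) :
    IsCyclic (Γ.H a b) ∧ ¬ 8 ∣ Nat.card (Γ.H a b) := by
  haveI : Fact (Nat.Prime 61) := ⟨by norm_num⟩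
  obtain ⟨r', hr'⟩ := exists_prime_orderOf_dvd_card' (G := K) 61 (by rw [hK.card, hv]; norm_num)
  have ho : orderOf (r' : G) = 61 := by rw [orderOf_coe, hr']
  have hr := r'.2
  generalize (r' : G) = r at ho hr
  have hcr : Nat.card (zpowers r) = 61 := by rw [Nat.card_zpowers, ho]
  have hle : Γ.H a b ≤ normalizer (zpowers r : Set G) := fun g hg => nm_r hK hv hr ho hg.1
  let φ : Γ.H a b →* MulAut (zpowers r) := (zpowers r).normalizerMonoidHom.comp (inclusion hle)
  have hφ : ∀ g : Γ.H a b, φ g = 1 → (g : G) * r = r * g := fun g hg => by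
    have : inclusion hle g ∈ (zpowers r).normalizerMonoidHom.ker := hg
    rw [normalizerMonoidHom_ker] at this
    exact (mem_centralizer_iff.1 this r (mem_zpowers r)).symm
  haveI hcyc : IsCyclic (MulAut (zpowers r)) := by
    have e := IsCyclic.mulAutMulEquiv (zpowers r)
    rw [hcr] at e
    exact isCyclic_of_surjective e.symm.toMonoidHom e.symm.surjective
  have hcA : Nat.card (MulAut (zpowers r)) = 60 := by
    rw [IsCyclic.card_mulAut, hcr, Nat.totient_prime (by norm_num)]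
  by_cases hinj : ∀ g : Γ.H a b, φ g = 1 → g = 1
  · have hi := (injective_iff_map_eq_one φ).2 hinj
    refine ⟨isCyclic_of_injective φ hi, fun h8 => ?_⟩
    have := h8.trans (card_dvd_of_injective φ hi)
    rw [hcA] at this
    omega
  exfalso
  push Not at hinj
  obtain ⟨o, ho1, ho2⟩ := hinj
  have ho3 : (o : G) ≠ 1 := fun e => ho2 (Subtype.ext e)
  obtain ⟨hoo, how⟩ := cent_r' hK hr ho o.2 ho3 (hφ o ho1)
  have hker : ∀ g : Γ.H a b, φ g = 1 → g = 1 ∨ g = o := fun g hg => by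
    by_cases e : g = 1
    · exact Or.inl e
    right
    obtain ⟨hgg, hgw⟩ := cent_r' hK hr ho g.2 (fun e' => e (Subtype.ext e')) (hφ g hg)
    have h1 : (g : G) * o = 1 := cent_r hK hr ho (mul_mem g.2 o.2)
      (by rw [Γ.w_mul g.2.1 o.2.1, hgw, how]; norm_num)
      (hφ (g * o) (by rw [map_mul, hg, ho1, one_mul]))
    apply Subtype.ext
    calc (g : G) = g * (o * o) := by rw [hoo, mul_one]
      _ = o := by rw [← mul_assoc, h1, one_mul]
  let C : Set G := {t | IsConj (o : G) t}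
  have hC := (hCnt G Ω h.two' C
    (fun g t ht => IsConj.trans ht (isConj_iff.2 ⟨g, rfl⟩)) 62 (fun t ht => by
      obtain ⟨g, rfl⟩ := isConj_iff.1 ht
      rw [← fix_o hK hv hr ho o.2 how (hφ o ho1), ← Set.ncard_smul_set g {c : Ω | (o : G) • c = c}]
      congr 1
      ext c
      rw [Set.mem_smul_set_iff_inv_smul_mem, Set.mem_ofPred_eq, Set.mem_ofPred_eq, mul_smul, mul_smul,
        smul_eq_iff_eq_inv_smul]) a b hK.ne).1
  set T := {t | t ∈ C ∧ t • a = a ∧ t • b = b} with hT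
  have hpos : 0 < T.ncard := (Set.ncard_pos (Set.toFinite _)).2 ⟨o, IsConj.refl _, o.2.1, o.2.2⟩
  have hle4 : T.ncard ≤ 4 := by
    classical
    haveI := Fintype.ofFinite (MulAut (zpowers r))
    have hcard := IsCyclic.card_pow_eq_one_le (α := MulAut (zpowers r)) (n := 2) two_pos
    have hsq : ∀ t ∈ T, t * t = 1 := fun t ht => by
      obtain ⟨g, rfl⟩ := isConj_iff.1 ht.1
      calc g * o * g⁻¹ * (g * o * g⁻¹) = g * (o * o) * g⁻¹ := by group
        _ = 1 := by rw [hoo]; simp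
    have hsq' : ∀ t (ht : t ∈ T), φ ⟨t, ht.2⟩ ^ 2 = 1 := fun t ht => by
      rw [← map_pow, show (⟨t, ht.2⟩ : Γ.H a b) ^ 2 = 1 from
        Subtype.ext (by simpa [pow_two] using hsq t ht), map_one]
    obtain ⟨t0, h0⟩ : ∃ t0 : Γ.H a b, ∀ t (ht : t ∈ T), φ ⟨t, ht.2⟩ = 1 ∨ φ ⟨t, ht.2⟩ = φ t0 := by
      by_cases hex : ∃ t0, ∃ h0 : t0 ∈ T, φ ⟨t0, h0.2⟩ ≠ 1
      · obtain ⟨t0, h0, h1⟩ := hex
        refine ⟨⟨t0, h0.2⟩, fun t ht => ?_⟩
        by_contra hn
        push Not at hn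
        have : 2 < (Finset.univ.filter fun x : MulAut (zpowers r) => x ^ 2 = 1).card :=
          Finset.two_lt_card_iff.2 ⟨1, φ ⟨t0, h0.2⟩, φ ⟨t, ht.2⟩, by simp, by simpa using hsq' t0 h0,
            by simpa using hsq' t ht, h1.symm, hn.1.symm, hn.2.symm⟩
        omega
      · push Not at hex
        exact ⟨1, fun t ht => Or.inl (hex t ht)⟩
    have hsub : T ⊆ {1, (o : G), (t0 : G), (t0 : G) * o} := fun t ht => by
      rcases h0 t ht with e | e
      · rcases hker _ e with e' | e'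
        · exact Or.inl (congrArg Subtype.val e')
        · exact Or.inr (Or.inl (congrArg Subtype.val e'))
      · rcases hker (t0⁻¹ * ⟨t, ht.2⟩) (by rw [map_mul, e, map_inv, inv_mul_cancel]) with e' | e'
        · exact Or.inr (Or.inr (Or.inl (congrArg Subtype.val (inv_mul_eq_one.1 e')).symm))
        · exact Or.inr (Or.inr (Or.inr (congrArg Subtype.val (inv_mul_eq_iff_eq_mul.1 e'))))
    refine (Set.ncard_le_ncard hsub (Set.toFinite _)).trans ?_
    refine (Set.ncard_insert_le _ _).trans (Nat.succ_le_succ ?_)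
    refine (Set.ncard_insert_le _ _).trans (Nat.succ_le_succ ?_)
    refine (Set.ncard_insert_le _ _).trans (Nat.succ_le_succ ?_)
    simp
  rw [hv] at hC
  omega

end S672

theorem jobE2 : JobE2.{u} := by
  intro hCnt G Ω _ _ _ _ Γ h e1 a b K hK he
  obtain ⟨z, hz⟩ := ncard_invs h hK he
  obtain ⟨k, h1, h2, -⟩ := e1 a b hK.ne
  rw [hz, Set.ncard_singleton] at h1 h2 ⊢
  have h5 : 5 ∣ Nat.card Ω - 12 := (dvd_mul_right 5 _).trans (h.dvdH0 a b hK.ne)
  have := h.big12
  have hv : Nat.card Ω = 672 ∨ Nat.card Ω = 1332 := by omega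
  rcases hv with hv | hv
  · exact Or.inl (case672 hCnt h hK hv)
  · exact Or.inr ⟨hv, rfl⟩

end H55.O11
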