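import Cfsg.Agent.H70.R3Spec

/-! Tower R3, slot TypeI (port of H34.TL.Ctx.low_large). -/

set_option autoImplicit false

namespace H55.R3TypeI

open Cfsg H28 H90 H34.TL Module Subgroup MulAction H70.R3

universe u

theorem pow_dvd {p n l D : ℕ} (hn : 3 ≤ n) (hp : 0 < p) (hl : Ppd p n l)
    (hD : 2 * D + 1 = p ^ n ∨ ∃ m, n = 2 * m ∧ D = p ^ m + 1) (j : ℕ) (h : l ^ j ∣ p ^ n - 1) :
    l ^ j ∣ D := by
  have hlt := hl.lt hp (by omega)
  rcases hD with e | ⟨m, e, rfl⟩
  · rw [← e, Nat.add_sub_cancel] at h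
    exact (Nat.Coprime.pow_left j ((Nat.coprime_primes hl.prime Nat.prime_two).2 (by omega))).dvd_of_dvd_mul_left h
  · have h1 : p ^ n - 1 = (p ^ m + 1) * (p ^ m - 1) := by
      rw [e, mul_comm 2 m, pow_mul, ← Nat.sq_sub_sq, one_pow]
    rw [h1] at h
    exact (Nat.Coprime.pow_left j ((Nat.Prime.coprime_iff_not_dvd hl.prime).2
      (hl.min m (by omega) (by omega)))).dvd_of_dvd_mul_right h

theorem jobTypeI : JobTypeI.{u} := by
  intro G V _ _ _ _ _ _ p n v₁ v₂ D h hn hF ⟨ψ, h1, h2, hd⟩ hDG hD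
  have p11 := h.ge11
  obtain ⟨l, l1, l2, l3, hbig⟩ := Cfsg.Agent.S3430.result p n (by omega) (by omega) (by omega)
    (by omega) (by omega) (by omega)
  have hl : Ppd p n l := ⟨l1, l2, l3⟩
  have := Fact.mk hl.prime
  have hlt := hl.lt h.prime.pos (by omega)
  have dv : ∀ j, l ^ j ∣ p ^ n - 1 → l ^ j ∣ Nat.card G := fun j k =>
    (pow_dvd hn h.prime.pos hl hD j k).trans hDG
  have hlG : l ∣ Nat.card G := by simpa using dv 1 (by simpa using hl.dvd)
  have nab : ∀ (B : Subgroup G) [B.Normal] [IsMulCommutative B], ¬ l ∣ Nat.card B := fun B _ _ hB => by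
    obtain ⟨k, e, a1, a2, a3, a4⟩ := hF.dvd B
    exact hl.min k a2 (by nlinarith) (hB.trans a4)
  have cc : ∀ {u a b : G}, orderOf u = l → Commute u a → Commute u b → a * b = b * a :=
    fun hu ha hb => comm_of_irreducible (V := V) _ (hl.irreducible h.prime h.card hu)
      (fun _ ⟨s, hs⟩ => hs ▸ ha.zpow_left s) fun _ ⟨s, hs⟩ => hs ▸ hb.zpow_left s
  by_cases hs : l ^ 2 ∣ Nat.card G
  · obtain ⟨R⟩ : Nonempty (Sylow l G) := inferInstance
    have h7 : l ^ 2 ∣ Nat.card R := R.pow_dvd_card_of_pow_dvd_card hs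
    have h8 : l ∣ Nat.card R := (dvd_pow_self l two_ne_zero).trans h7
    have : Nontrivial R := Finite.one_lt_card_iff_nontrivial.1
      (lt_of_lt_of_le hl.prime.one_lt (Nat.le_of_dvd Nat.card_pos h8))
    have := R.isPGroup'.center_nontrivial
    obtain ⟨⟨⟨z, hz⟩, hz1⟩, hz2⟩ := exists_ne (1 : center R)
    obtain ⟨s, hs⟩ := exists_pow_order hl.prime R.isPGroup' hz
      fun e => hz2 (Subtype.ext (Subtype.ext e))
    have hc : ∀ a ∈ (R : Subgroup G), ∀ b ∈ (R : Subgroup G), a * b = b * a := fun a ha b hb =>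
      cc hs (Commute.zpow_left (congrArg Subtype.val
        (mem_center_iff.1 hz1 ⟨a, ha⟩)).symm s) (Commute.zpow_left (congrArg Subtype.val
          (mem_center_iff.1 hz1 ⟨b, hb⟩)).symm s)
    have : IsMulCommutative R := ⟨⟨fun a b => Subtype.ext (hc a a.2 b b.2)⟩⟩
    have := sylow_normal_of_small_degree R (fun x hx h0 => le_antisymm (fun y hy r hr => by
      obtain ⟨s, hs⟩ := exists_pow_order hl.prime R.isPGroup' hx h0
      exact cc hs (Commute.zpow_left (hc x hx r hr) s)
        (Commute.zpow_left (mem_centralizer_singleton_iff.1 hy).symm s))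
      (centralizer_le (Set.singleton_subset_iff.2 hx))) h1.isCharacter h2
      (lt_of_lt_of_le (by nlinarith) (Nat.le_of_dvd Nat.card_pos h7))
    exact nab R h8
  have h7 : n + 1 < l := hbig.resolve_right fun e => hs (dv 2 e)
  have h8 : 2 * n + 1 ≤ l := by
    obtain ⟨c, hc⟩ := H27.dvd_sub_one_of_primitive h.prime.two_le (by omega) hl.prime hl.dvd hl.min
    have : 2 ≤ c := by
      by_contra h9
      have : c = 0 ∨ c = 1 := by omega
      rcases this with rfl | rfl <;> omega
    have := Nat.mul_le_mul_left n this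
    omega
  rcases small (by omega) hlG hs h1.isCharacter h2 (by omega) with ⟨N, _, hN⟩ | ⟨h9, h10⟩
  · have := isCyclic_of_prime_card hN
    exact nab N hN.symm.dvd
  obtain rfl : l = 2 * n + 1 := by omega
  have x1 : (center G).index = 2 * n * (n + 1) * (2 * n + 1) := by
    rw [show (2 * n + 1) ^ 2 = 4 * n * (n + 1) + 1 by ring, Nat.add_sub_cancel] at h10
    nlinarith
  have z1 : 2 * Nat.card (center G) ≤ p - 1 := by
    have := center_le_cls (G := G)
    have := h.lt
    omega
  have c1 := h.toTwo.le_card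
  rw [← (center G).index_mul_card, x1] at c1 hDG
  have c2 := Nat.mul_le_mul_left (2 * n * (n + 1) * (2 * n + 1)) z1
  rw [mul_left_comm] at c2
  obtain rfl | rfl | n5 : n = 3 ∨ n = 4 ∨ 5 ≤ n := by omega
  · have p12 : p ≤ 12 := by
      by_contra k
      have : 13 ^ 2 * p ≤ p ^ 2 * p := Nat.mul_le_mul_right _ (Nat.pow_le_pow_left (by omega) 2)
      rw [pow_succ p 2] at c1
      clear * - this c1 c2 k
      omega
    have : p ≠ 12 := fun e => by have := h.prime; rw [e] at this; norm_num at this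
    obtain rfl : p = 11 := by omega
    have z0 : 0 < Nat.card (center G) := Nat.card_pos
    rcases hD with e | ⟨m, e, -⟩
    · obtain rfl : D = 665 := by omega
      omega
    · omega
  · exact absurd l1 (by norm_num)
  · have := num_big (p := p) (by omega) n5
    omega

end H55.R3TypeI
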