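import Cfsg.Agent.H2.SpSpec

/-! Tower SPIN (S4578): the Lagrange identity for Schur's degree quotient, and the degree formula. -/

set_option autoImplicit false

namespace H55.SpLag

open H2.Sp
open Finset hiding val

open Polynomial in
theorem lagr {ι : Type*} [DecidableEq ι] (s : Finset ι) (v w : ι → ℚ) (hv : Set.InjOn v s) :
    ∑ i ∈ s, (∏ j ∈ s, (v i - w j)) / ∏ j ∈ s.erase i, (v i - v j) = ∑ i ∈ s, (v i - w i) := by
  rcases s.eq_empty_or_nonempty with rfl | hs
  · simp
  have d : ∀ u : ι → ℚ, (∏ j ∈ s, (X - C (u j))).degree = (s.card : WithBot ℕ) := fun u => by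
    rw [degree_eq_natDegree (monic_prod_X_sub_C u s).ne_zero, natDegree_finsetProd_X_sub_C_eq_card]
  have h := Lagrange.coeff_eq_sum hv (P := ∏ j ∈ s, (X - C (w j)) - ∏ j ∈ s, (X - C (v j)))
    (d w ▸ degree_sub_lt_left ((d w).trans (d v).symm) (monic_prod_X_sub_C w s).ne_zero
      ((monic_prod_X_sub_C w s).trans (monic_prod_X_sub_C v s).symm))
  rw [coeff_sub, prod_X_sub_C_coeff_card_pred _ _ hs.card_pos,
    prod_X_sub_C_coeff_card_pred _ _ hs.card_pos] at h
  rw [sum_sub_distrib, show ∑ i ∈ s, v i - ∑ i ∈ s, w i = -∑ i ∈ s, w i - -∑ i ∈ s, v i by ring, h]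
  refine sum_congr rfl fun i hi => ?_
  simp only [eval_sub, eval_prod, eval_X, eval_C]
  rw [prod_eq_zero (f := fun j => v i - v j) hi (sub_self _), sub_zero]

/-- the factor of the ratio -/
def F (x b : ℤ) : ℚ := (x + b) * (x - 1 - b) / ((x - b) * (x - 1 + b))

theorem sum_F (s : Finset ℤ) (hs : ∀ a ∈ s, 0 < a) :
    ∑ x ∈ s, (x : ℚ) * ∏ b ∈ s.erase x, F x b = ∑ x ∈ s, (x : ℚ) := by
  have h := lagr s (fun b => (b : ℚ) * (b - 1)) (fun b => (b : ℚ) * (b + 1)) fun a ha b hb e => by
    have e' : a * (a - 1) = b * (b - 1) := by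
      beta_reduce at e
      exact_mod_cast e
    have := hs a ha
    have := hs b hb
    exact sub_eq_zero.1 ((mul_eq_zero.1 (show (a - b) * (a + b - 1) = 0 by
      linear_combination e')).resolve_right (by omega))
  refine mul_left_cancel₀ (show (-2 : ℚ) ≠ 0 by norm_num) ?_
  rw [mul_sum, mul_sum]
  refine (sum_congr rfl fun x hx => ?_).trans (h.trans (sum_congr rfl fun x _ => by ring))
  rw [← mul_prod_erase _ _ hx, mul_div_assoc, ← prod_div_distrib, ← mul_assoc]
  congr 1
  · ring
  · exact prod_congr rfl fun b _ => by rw [F]; congr 1 <;> ring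

theorem fact {a : ℤ} (h : 0 < a) : (a.toNat.factorial : ℚ) = a * (a - 1).toNat.factorial := by
  obtain ⟨n, rfl⟩ : ∃ n : ℕ, a = n + 1 := ⟨(a - 1).toNat, by omega⟩
  rw [add_sub_cancel_right, Int.toNat_natCast_add_one, Int.toNat_natCast, Nat.factorial_succ]
  push_cast; ring

theorem low_sum (l : List ℤ) (hl : Good l) (g : ℤ → ℚ) (hg : ∀ b ∈ l, g b ≠ 0) :
    ((low 1 l).map fun l' => R l' * (l'.map g).prod).sum = R l * (l.map g).prod *
      ∑ x ∈ l.toFinset, g (x - 1) / g x * (x * ∏ b ∈ l.toFinset.erase x, F x b) := by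
  induction l generalizing g with
  | nil => simp [low_nil]
  | cons a l ih =>
    obtain ⟨h1, h2⟩ := hl
    rw [List.nodup_cons] at h1
    have ha := h2 a (by simp)
    have hl : ∀ b ∈ l, (a - b : ℚ) ≠ 0 ∧ (a + b : ℚ) ≠ 0 ∧ (a - 1 + b : ℚ) ≠ 0 := fun b hb => by
      have := h2 b (by simp [hb])
      have : a ≠ b := fun e => h1.1 (e ▸ hb)
      refine ⟨?_, ?_, ?_⟩ <;> norm_cast <;> omega
    have hn : a ∉ l.toFinset := by simpa using h1.1
    have ga := hg a (by simp)
    have := ih ⟨h1.2, fun b hb => h2 b (by simp [hb])⟩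
      (fun b => g b * (((a - b : ℤ) : ℚ) / ((a + b : ℤ) : ℚ))) fun b hb => by
        push_cast
        exact mul_ne_zero (hg b (by simp [hb])) (div_ne_zero (hl b hb).1 (hl b hb).2.1)
    simp only [List.prod_map_mul] at this
    rw [low_cons, List.map_cons, List.sum_cons, List.map_map, List.toFinset_cons, sum_insert hn,
      erase_insert hn, mul_add]
    congr 1
    · have e : (l.map fun b => ((a - 1 - b : ℤ) : ℚ) / ((a - 1 + b : ℤ) : ℚ)).prod =
          (l.map fun b => ((a - b : ℤ) : ℚ) / ((a + b : ℤ) : ℚ)).prod * ∏ b ∈ l.toFinset, F a b := by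
        rw [List.prod_toFinset _ h1.2, ← List.prod_map_mul]
        refine congrArg _ (List.map_congr_left fun b hb => ?_)
        obtain ⟨x, y, z⟩ := hl b hb
        rw [F]; push_cast; field_simp
      have : (a : ℚ) ≠ 0 := by exact_mod_cast ha.ne'
      rw [R_cons, R_cons, e, fact ha, List.map_cons, List.map_cons, List.prod_cons, List.prod_cons]
      field_simp
    · have e : ((low 1 l).map ((fun l' => R l' * (l'.map g).prod) ∘ fun x => a :: x)).sum =
          g a / a.toNat.factorial * ((low 1 l).map fun l' => R l' * ((l'.map g).prod *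
            (l'.map fun b => ((a - b : ℤ) : ℚ) / ((a + b : ℤ) : ℚ)).prod)).sum := by
        rw [← List.sum_map_mul_left]
        refine congrArg _ (List.map_congr_left fun l' _ => ?_)
        simp only [Function.comp, R_cons, List.map_cons, List.prod_cons]; ring
      rw [e, this, R_cons, List.map_cons, List.prod_cons, mul_sum, mul_sum, mul_sum]
      refine sum_congr rfl fun x hx => ?_
      have hx' := List.mem_toFinset.1 hx
      obtain ⟨u, v, w⟩ := hl x hx'
      have := hg x (by simp [hx'])
      have hne : a ≠ x := fun e => hn (e ▸ hx)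
      have u' : (x - a : ℚ) ≠ 0 := fun e => u (by linear_combination -e)
      have w' : (x - 1 + a : ℚ) ≠ 0 := fun e => w (by linear_combination e)
      have w'' : (a + (x - 1) : ℚ) ≠ 0 := fun e => w (by linear_combination e)
      rw [erase_insert_of_ne hne, prod_insert fun h => hn (mem_of_mem_erase h), F]
      push_cast
      field_simp
      ring

theorem jobLag : Lag := fun l hl => by
  have := low_sum l hl (fun _ => 1) fun _ _ => one_ne_zero
  simp only [List.map_const', List.prod_replicate, one_pow, mul_one, div_one, one_mul] at this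
  rw [show (low 1 l).map R = (low 1 l).map fun l' => R l' from rfl, this,
    sum_F _ fun a ha => hl.2 a (List.mem_toFinset.1 ha), List.sum_toFinset _ hl.1, mul_comm]
  push_cast
  rfl

theorem R_dup {l : List ℤ} (h : ¬ l.Nodup) : R l = 0 := by
  induction l with
  | nil => simp at h
  | cons a l ih =>
    rw [R_cons]
    by_cases e : a ∈ l
    · rw [List.prod_eq_zero (List.mem_map.2 ⟨a, e, by simp⟩), mul_zero]
    · rw [ih fun h' => h (List.nodup_cons.2 ⟨e, h'⟩), zero_div, zero_mul]

theorem low_red (c : Com) {l : List ℤ} (hl : Pos l) : ∀ l' ∈ low 1 l, ∃ (m : List ℤ) (ε : ℚ), Pos m ∧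
    m.sum + 1 = l.sum ∧ Q l' = ε • Q m ∧ R l' = ε * R m ∧
      ∀ g : ℤ → ℚ, g 0 = 1 → (l'.map g).prod = (m.map g).prod := by
  induction l with
  | nil => simp [low_nil]
  | cons a l ih =>
    have ha := hl a (by simp)
    have hl' : Pos l := fun b hb => hl b (by simp [hb])
    intro l' h
    rw [low_cons, List.mem_cons, List.mem_map] at h
    rcases h with rfl | ⟨l', h, rfl⟩
    · by_cases e : a = 1
      · subst e
        refine ⟨l, (-1) ^ l.length, hl', by simp [add_comm], c.zero l hl', ?_, fun g hg => by simp [hg]⟩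
        rw [R_cons, List.map_congr_left (g := fun _ => -1) fun b hb => by
          have : (b : ℚ) ≠ 0 := by exact_mod_cast (hl' b hb).ne'
          simp [this]]
        simp [mul_comm]
      · refine ⟨_, 1, fun b hb => ?_, by simp; ring, (one_smul _ _).symm, (one_mul _).symm,
          fun _ _ => rfl⟩
        rcases List.mem_cons.1 hb with rfl | hb
        exacts [by omega, hl' b hb]
    · obtain ⟨m, ε, h1, h2, h3, h4, h5⟩ := ih hl' l' h
      refine ⟨a :: m, ε, fun b hb => ?_, by simp [← h2, add_assoc], by
        rw [Q_cons, Q_cons, h3, map_smul], ?_, fun g hg => by simp [h5 g hg]⟩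
      · rcases List.mem_cons.1 hb with rfl | hb
        exacts [ha, h1 b hb]
      · have : (a : ℚ) ≠ 0 := by exact_mod_cast ha.ne'
        rw [R_cons, R_cons, h4, h5 _ (by simp [this])]; ring

theorem val_sum (L : List Γ) (ρ : Multiset ℕ) : val L.sum ρ = (L.map fun f => val f ρ).sum := by
  induction L with
  | nil => simp [val]
  | cons f L ih => rw [List.sum_cons, List.map_cons, List.sum_cons, ← ih]; simp [val, mul_add]

theorem val_smul (c : ℚ) (f : Γ) (ρ : Multiset ℕ) : val (c • f) ρ = c * val f ρ := by
  simp [val]; ring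

theorem jobDegA (k : Kit) (c : Com) (hL : Lag) : DegA := by
  have key : ∀ (n : ℕ) (l : List ℤ), Pos l → l.sum = n →
      val (Q l) (Multiset.replicate n 1) = n.factorial * R l := by
    intro n
    induction n with
    | zero =>
      intro l hl e
      cases l with
      | nil => simp [k.val_zero, Q_nil, R_nil]
      | cons a l =>
        have := hl a (by simp)
        have := List.sum_nonneg fun b hb => (hl b (List.mem_cons_of_mem a hb)).le
        rw [List.sum_cons] at e
        omega
    | succ n ih =>
      intro l hl e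
      by_cases hd : l.Nodup
      · have := k.d_Q 0 l
        simp only [Nat.cast_zero, mul_zero, zero_add] at this
        rw [Multiset.replicate_succ, k.val_cons, this, val_sum, List.map_map,
          List.map_congr_left (g := fun l' => n.factorial * R l') fun l' h => ?_,
          List.sum_map_mul_left, show (low 1 l).map (fun l' => R l') = (low 1 l).map R from rfl,
          hL l ⟨hd, hl⟩, e, Nat.factorial_succ]
        · push_cast; ring
        obtain ⟨m, ε, h1, h2, h3, h4, -⟩ := low_red c hl l' h
        rw [Function.comp, h3, val_smul, ih m h1 (by omega), h4]; ring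
      · rw [c.dup l hl hd, R_dup hd]; simp [val]
  exact fun l hl => key _ l hl.2 (Int.toNat_of_nonneg (List.sum_nonneg fun b hb => (hl.2 b hb).le)).symm

end H55.SpLag
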