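/- Tower WU (S4793): an eigenvector of `As e x` is fixed by a transvection group. -/
import Cfsg.Agent.H53.WUSpec
import Cfsg.Agent.H22.Weights

set_option autoImplicit false

open Cfsg H59 Module H53.WU

namespace H55.WUEv

theorem exists_shift {F : Type} [Field F] [Fintype F] {ψ : AddChar F ℂ} (h : ψ ≠ 1) (φ : AddChar F ℂ) :
    ∃ c, ∀ a, φ a = ψ (c * a) := by
  classical
  obtain ⟨c, e⟩ := ((Fintype.bijective_iff_injective_and_card _).2
    ⟨AddChar.to_mulShift_inj_of_isPrimitive (AddChar.IsPrimitive.of_ne_one h),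
      AddChar.card_eq.symm⟩).2 φ
  exact ⟨c, fun a => e ▸ rfl⟩

/-- the choice of the point -/
theorem exists_point {F : Type} [Field F] [Finite F] {σ : F →+* F} (h1 : σ ≠ RingHom.id F)
    (h2 : ∀ a, σ (σ a) = a) {ψ φ φ' : AddChar F ℂ} (h : ψ ≠ 1) (hψ : ∀ a, σ a = a → ψ a = 1)
    (hφ : ∀ a, σ a = a → φ a = 1) :
    ∃ r, ∀ a, ψ (a * (σ r * r)) * φ a * φ' ((a - σ a) * r) = 1 := by
  have := Fintype.ofFinite F
  obtain ⟨b, hb⟩ := exists_shift h φ
  obtain ⟨c, hc⟩ := exists_shift h φ'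
  have hb' : σ b = b := by
    by_contra k
    have k' : b - σ b ≠ 0 := sub_ne_zero.2 (Ne.symm k)
    have k2 : σ (b - σ b) = -(b - σ b) := by rw [map_sub, h2]; ring
    refine h (AddChar.ext _ _ fun a => ?_)
    have u : σ ((a - σ a) / (b - σ b)) = (a - σ a) / (b - σ b) := by
      rw [map_div₀, k2, map_sub, h2]; field_simp; ring
    rw [show a = b * ((a - σ a) / (b - σ b)) + (a - b * ((a - σ a) / (b - σ b))) by ring,
      AddChar.map_add_eq_mul, ← hb, hφ _ u, hψ, AddChar.one_apply, mul_one]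
    rw [map_sub, map_mul, u]; field_simp; ring
  obtain ⟨y, hy⟩ := exists_norm_eq' h1 h2 (μ := σ c * c - b) (by rw [map_sub, map_mul, h2, hb', mul_comm])
  refine ⟨y - σ c, fun a => ?_⟩
  rw [hb, hc, ← AddChar.map_add_eq_mul, ← AddChar.map_add_eq_mul]
  refine hψ _ ?_
  simp only [map_add, map_mul, map_sub, h2, hb']
  linear_combination (σ a - a) * hy

variable {S : HS} {e x : S.V}

/-- the elements of `As e x` -/
def Fm (e x : S.V) (g : S.G) (α β γ : S.F) : Prop := ∀ v, g.1 v =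
  v + (α * S.B e v + γ * S.B x v) • e + (β * S.B x v - frob S.hF γ * S.B e v) • x

theorem Fm.mul (he : S.B e e = 0) (hx : S.B x x = 0) (h : S.B e x = 0) {g g' : S.G} {α β γ α' β' γ' : S.F}
    (a : Fm e x g α β γ) (b : Fm e x g' α' β' γ') : Fm e x (g * g') (α + α') (β + β') (γ + γ') := fun v => by
  have h' := S.h.eq_zero_comm.1 h
  change g.1 (g'.1 v) = _
  rw [a, b]
  simp only [map_add, map_smul, he, hx, h, h', smul_eq_mul]
  module

theorem Fm.ext {g g' : S.G} {α β γ : S.F} (a : Fm e x g α β γ) (b : Fm e x g' α β γ) : g = g' :=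
  Subtype.ext (LinearEquiv.ext fun v => (a v).trans (b v).symm)

theorem Fm.tv {g : S.G} {r s k : S.F} (hk : k + frob S.hF k = 0)
    (h : ∀ v, g.1 v = v + (k * S.B (r • e + s • x) v) • (r • e + s • x)) :
    Fm e x g (k * (frob S.hF r * r)) (k * (frob S.hF s * s)) (k * frob S.hF s * r) := fun v => by
  rw [h, map_add, LinearMap.add_apply, form_smul_left, form_smul_left, map_mul, map_mul, S.h.invol,
    eq_neg_of_add_eq_zero_right hk]
  module

theorem iso (he : S.B e e = 0) (hx : S.B x x = 0) (h : S.B e x = 0) (r s : S.F) :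
    S.B (r • e + s • x) (r • e + s • x) = 0 := by
  simp [he, hx, h, S.h.eq_zero_comm.1 h]

theorem exists_fm (he : S.B e e = 0) (hx : S.B x x = 0) (h : S.B e x = 0) (p : S.F × S.F × S.F) :
    ∃ g, Fm e x g (p.1 - frob S.hF p.1) (p.2.1 - frob S.hF p.2.1) p.2.2 := by
  have tv : ∀ r s k : S.F, k + frob S.hF k = 0 →
      ∃ g, Fm e x g (k * (frob S.hF r * r)) (k * (frob S.hF s * s)) (k * frob S.hF s * r) := fun r s k hk =>
    let ⟨g, hg, a⟩ := S.h.exists_transv (iso he hx h r s) hk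
    ⟨⟨g, axisGrp_le_sisom (iso he hx h r s) hg⟩, Fm.tv hk a⟩
  obtain ⟨d, d0, hd⟩ := exists_trace_zero_ne_zero S.h.ne_id S.h.invol
  obtain ⟨g1, a1⟩ := tv (p.2.2 / d) 1 d hd
  obtain ⟨g2, a2⟩ := tv 1 0 (p.1 - frob S.hF p.1 - d * (frob S.hF (p.2.2 / d) * (p.2.2 / d))) (by
    simp only [map_sub, map_mul, S.h.invol]
    linear_combination -(frob S.hF (p.2.2 / d) * (p.2.2 / d)) * hd)
  obtain ⟨g3, a3⟩ := tv 0 1 (p.2.1 - frob S.hF p.2.1 - d) (by
    simp only [map_sub, S.h.invol]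
    linear_combination -hd)
  refine ⟨g1 * g2 * g3, ?_⟩
  convert (a1.mul he hx h a2).mul he hx h a3 using 1 <;> simp
  field_simp

theorem jobEv : JobEv := fun S e x he hx h ind N _ _ _ ρ X X' hX H => by
  choose Φ hΦ using exists_fm he.2 hx.2 h
  have add : ∀ p p', Φ (p + p') = Φ p * Φ p' := fun p p' => (hΦ _).ext (by
    convert (hΦ p).mul he.2 hx.2 h (hΦ p') using 1 <;> simp <;> ring)
  have one : ∀ a b : S.F, frob S.hF a = a → frob S.hF b = b → Φ (a, b, 0) = 1 := fun a b ha hb =>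
    (hΦ _).ext fun v => by simp [ha, hb]
  have mem : ∀ p, ∀ v ∈ X, ρ (Φ p) v ∈ X := fun p => hX _ fun v h1 h2 => by simp [hΦ p v, h1, h2]
  have top := H22.iSup_wt_eq_top (fun p => (ρ (Φ p)).restrict (mem p))
    (fun p p' => LinearMap.ext fun v => Subtype.ext (by
      change (ρ (Φ p) * ρ (Φ p')) v = (ρ (Φ p') * ρ (Φ p)) v
      rw [← map_mul, ← map_mul, ← add, ← add, add_comm]))
    fun p => ⟨Nat.card S.G, Nat.cast_ne_zero.2 Nat.card_pos.ne', by
      rw [Module.End.pow_restrict]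
      exact LinearMap.ext fun v => Subtype.ext (by simp [← map_pow])⟩
  refine fun v hv => (top.ge.trans (iSup_le fun χ w hw => ?_) : ⊤ ≤ X'.comap X.subtype) (x := ⟨v, hv⟩) trivial
  replace hw : ∀ p, ρ (Φ p) w = χ p • (w : N) := fun p => congrArg Subtype.val (hw p)
  by_cases w0 : (w : N) = 0
  · exact (show (w : N) ∈ X' from w0 ▸ zero_mem _)
  have c1 : ∀ p, Φ p = 1 → χ p = 1 := fun p k => smul_left_injective ℂ w0 (by
    simpa [k] using (hw p).symm)
  have c2 : ∀ p p', χ (p + p') = χ p * χ p' := fun p p' => smul_left_injective ℂ w0 (by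
    simp only
    rw [← hw, add, map_mul, Module.End.mul_apply, hw, map_smul, hw, smul_smul, mul_comm])
  have c0 := c1 _ (one 0 0 (map_zero _) (map_zero _))
  let ψ : AddChar S.F ℂ := ⟨fun a => χ (a, 0, 0), c0, fun a b => by rw [← c2]; simp⟩
  let φ : AddChar S.F ℂ := ⟨fun a => χ (0, a, 0), c0, fun a b => by rw [← c2]; simp⟩
  let φ' : AddChar S.F ℂ := ⟨fun a => χ (0, 0, a), c0, fun a b => by rw [← c2]; simp⟩
  have key : ∀ r s : S.F, r • e + s • x ≠ 0 → (∀ a, ψ (a * (frob S.hF r * r)) * φ (a * (frob S.hF s * s)) *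
      φ' ((a - frob S.hF a) * frob S.hF s * r) = 1) → (w : N) ∈ X' := fun r s ne k =>
    H r s ne w w.2 fun t ht => by
      obtain ⟨c, hc, ht⟩ := (S.h.mem_axisGrp_isotropic (iso he.2 hx.2 h r s)).1 ht
      obtain ⟨a, rfl⟩ := exists_sub_eq_of_trace_zero S.h.ne_id S.h.invol hc
      have : t = Φ (a * (frob S.hF r * r), a * (frob S.hF s * s), (a - frob S.hF a) * frob S.hF s * r) :=
        (Fm.tv hc ht).ext (by convert hΦ _ using 1 <;> simp [S.h.invol] <;> ring)
      have k' := k a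
      simp only [ψ, φ, φ', AddChar.coe_mk, ← c2, Prod.mk_add_mk, add_zero, zero_add] at k'
      rw [this, hw, k', one_smul]
  by_cases h0 : ψ = 1
  · exact key 1 0 (by simpa using he.1) fun a => by simp [h0]
  obtain ⟨r, hr⟩ := exists_point S.h.ne_id S.h.invol (φ := φ) (φ' := φ') h0
    (fun a ha => c1 _ (one a 0 ha (map_zero _))) fun a ha => c1 _ (one 0 a (map_zero _) ha)
  exact key r 1 (fun k => ind (-r) (by rw [one_smul] at k; rw [neg_smul, eq_neg_iff_add_eq_zero, add_comm, k]))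
    fun a => by simpa using hr a

end H55.WUEv
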